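import Mathlib
import Cfsg.Agent.H234.CoxB

/-!
# S2451, helper148: alternating words
-/

set_option autoImplicit false
set_option linter.unusedSectionVars false

namespace Cfsg.Agent.H148.Cls

open Cfsg.Agent.Tits.Core Cfsg.Agent.Tits.Exchange Cfsg.Agent.Tits Cfsg.Agent.H234.CoxB

variable {I : Type*} {M : CoxeterMatrix I} {W : Type*} [Group W] {cs : CoxeterSystem M W}

local prefix:100 "ℓ" => cs.length

/-- the letters `k, l, k, l, …` -/
def lt (k l : I) : ℕ → I
  | 0 => k
  | n + 1 => lt l k n

@[simp] theorem lt_zero (k l : I) : lt k l 0 = k := rfl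

theorem lt_succ (k l : I) (n : ℕ) : lt k l (n + 1) = lt l k n := rfl

theorem lt_even (k l : I) {n : ℕ} (h : Even n) : lt k l n = k := by
  induction n using Nat.strong_induction_on generalizing k l with
  | _ n ih =>
    rcases n with _ | _ | n
    · rfl
    · exact absurd h (by decide)
    · rw [lt_succ, lt_succ]
      exact ih n (by omega) k l (by rwa [Nat.even_add_one, Nat.even_add_one, not_not] at h)

theorem lt_odd (k l : I) {n : ℕ} (h : ¬ Even n) : lt k l n = l := by
  rcases n with _ | n
  · exact absurd (by decide) h
  · rw [lt_succ]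
    exact lt_even l k (by rwa [Nat.even_add_one, not_not] at h)

theorem lt_cases (k l : I) (n : ℕ) : (lt k l n = k ∧ lt l k n = l) ∨ (lt k l n = l ∧ lt l k n = k) := by
  by_cases h : Even n
  · left; exact ⟨lt_even _ _ h, lt_even _ _ h⟩
  · right; exact ⟨lt_odd _ _ h, lt_odd _ _ h⟩

theorem alt_add (k l : I) (a b : ℕ) :
    alt cs k l (a + b) = alt cs k l a * alt cs (lt k l a) (lt l k a) b := by
  induction a generalizing k l with
  | zero => simp
  | succ a ih => rw [Nat.succ_add, alt_succ, ih, alt_succ, lt_succ, lt_succ, mul_assoc]

theorem alt_succ' (k l : I) (n : ℕ) : alt cs k l (n + 1) = alt cs k l n * cs.simple (lt k l n) := by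
  rw [alt_add, alt_one]

theorem alt_inv (k l : I) (n : ℕ) : (alt cs k l n)⁻¹ = alt cs (lt l k n) (lt k l n) n := by
  induction n generalizing k l with
  | zero => simp
  | succ n ih =>
    rw [alt_succ', mul_inv_rev, cs.inv_simple, ih, alt_succ, lt_succ, lt_succ]

theorem orderOf_comm' (k l : I) : orderOf (cs.simple l * cs.simple k) = orderOf (cs.simple k * cs.simple l) :=
  orderOf_swap (cs := cs) k l

variable [F : OppRes.Cox cs]

theorem len_alt {k l : I} {m : ℕ} (hm : orderOf (cs.simple k * cs.simple l) = m) {n : ℕ} (hn : n ≤ m) :
    ℓ (alt cs k l n) = n := length_alt n (by rw [hm]; exact hn)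

/-- the elements of a dihedral parabolic are alternating words -/
theorem exists_alt {k l : I} {w : W} (hw : w ∈ WJ cs {k, l}) :
    (w = alt cs k l (ℓ w)) ∨ (w = alt cs l k (ℓ w)) := by
  generalize hn : ℓ w = n
  induction n using Nat.strong_induction_on generalizing w with
  | _ n ih =>
    rcases n with _ | n
    · left; rw [alt_zero]; exact cs.length_eq_zero_iff.1 hn
    · have hne : w ≠ 1 := fun h => by rw [h, cs.length_one] at hn; omega
      obtain ⟨j, hj, hlt⟩ := F.exists_descent hw hne
      have h1 : ℓ (w * cs.simple j) = n := by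
        have := cs.length_mul_simple w j
        omega
      have h2 : w * cs.simple j ∈ WJ cs {k, l} := mul_mem hw (simple_mem_WJ cs hj)
      -- a general step
      have key : ∀ a b : I, (j = a ∨ j = b) → w * cs.simple j = alt cs a b n →
          (w = alt cs a b (n + 1)) ∨ (w = alt cs b a (n + 1)) := by
        intro a b hab h3
        have h4 : w = alt cs a b n * cs.simple j := by
          rw [← h3, cs.simple_mul_simple_cancel_right]
        by_cases h5 : j = lt a b n
        · left; rw [h4, h5, alt_succ']
        · rcases n with _ | n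
          · rw [alt_zero, one_mul] at h4
            rw [lt_zero] at h5
            have h6 : j = b := by tauto
            right
            rw [h4, h6, zero_add, alt_one]
          · exfalso
            have h6 : j = lt a b n := by
              rw [lt_succ] at h5
              rcases lt_cases a b n with ⟨h7, h8⟩ | ⟨h7, h8⟩
              · rw [h7]; rw [h8] at h5; tauto
              · rw [h7]; rw [h8] at h5; tauto
            rw [alt_succ', ← h6, cs.simple_mul_simple_cancel_right] at h4
            have h9 : ℓ w ≤ n := by
              rw [h4]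
              clear * -
              induction n generalizing a b with
              | zero => rw [alt_zero, cs.length_one]
              | succ n ih =>
                rw [alt_succ']
                have := cs.length_mul_le (alt cs a b n) (cs.simple (lt a b n))
                rw [cs.length_simple] at this
                have := ih a b
                omega
            omega
      rcases ih n (by omega) h2 h1 with h3 | h3
      · exact key k l hj h3
      · have hj' : j = l ∨ j = k := hj.symm
        exact (key l k hj' h3).symm

theorem len_wJ_pair {k l : I} {m : ℕ} (hm : orderOf (cs.simple k * cs.simple l) = m) (hm0 : m ≠ 0) :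
    ℓ (wJ cs {k, l}) = m := by
  rw [wJ_pair hm hm0, len_alt hm le_rfl]

theorem len_le {k l : I} {m : ℕ} (hm : orderOf (cs.simple k * cs.simple l) = m) (hm0 : m ≠ 0) {w : W}
    (hw : w ∈ WJ cs {k, l}) : ℓ w ≤ m := by
  have := F.len_wJ_mul hw
  rw [len_wJ_pair hm hm0] at this
  omega

theorem eq_wJ_of_len {k l : I} {m : ℕ} (hm : orderOf (cs.simple k * cs.simple l) = m) (hm0 : m ≠ 0) {w : W}
    (hw : w ∈ WJ cs {k, l}) (h : m ≤ ℓ w) : w = wJ cs {k, l} := by
  have h1 := F.len_wJ_mul hw
  rw [len_wJ_pair hm hm0] at h1
  have h2 : ℓ (wJ cs {k, l} * w) = 0 := by omega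
  rw [cs.length_eq_zero_iff] at h2
  rw [← F.wJ_inv]
  exact eq_inv_of_mul_eq_one_right h2

end Cfsg.Agent.H148.Cls
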