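import Mathlib
import Cfsg.Agent.H197.Cls.SSet

/-!
# S2451, helper148: the fixed chambers of `a` and `b` when `Dis Δ a b ⊆ {1}`
-/

set_option autoImplicit false
set_option linter.unusedSectionVars false

open scoped Pointwise

namespace Cfsg.Agent.H148.Cls

open Cfsg.Agent.Tits.Core Cfsg.Agent.Tits.Core.Bldg Cfsg.Agent.Tits.Exchange Cfsg.Agent.Tits Cfsg.Agent.FixBN
open Cfsg.Agent.H197.Cls

variable {I : Type*} {M : CoxeterMatrix I} {W : Type*} [Group W] {cs : CoxeterSystem M W} {C : Type*}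

local prefix:100 "ℓ" => cs.length

variable {Δ : Bldg cs C} {G : Type*} [Group G] [MulAction G C] {p : ℕ}

/-- one or all chambers of each panel are fixed -/
def Uni (Δ : Bldg cs C) (x : G) : Prop :=
  ∀ (i : I) (c d : C), x • c = c → x • d = d → d ∈ Δ.Pan i c → d ≠ c → ∀ e ∈ Δ.Pan i c, x • e = e

/-- each stable residue contains a fixed chamber -/
def StF (Δ : Bldg cs C) (x : G) : Prop :=
  ∀ (J : Set I) (c : C), x • c ∈ Δ.Res J c → ∃ d ∈ Δ.Res J c, x • d = d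

theorem StF.pan {x : G} (h : StF Δ x) {i : I} {c : C} (hc : x • c ∈ Δ.Pan i c) : ∃ d ∈ Δ.Pan i c, x • d = d := by
  rw [Δ.Pan_eq_Res] at hc ⊢
  exact h {i} c hc

/-- the residues of the types which are not moved -/
theorem fix_res_of_not_mv {J : Set I} {x : G} (h : ∀ i ∈ J, ¬ Mv Δ i x) {c d : C} (hc : x • c = c)
    (hd : d ∈ Δ.Res J c) : x • d = d :=
  Δ.Res_induction (p := fun d => x • d = d) hc
    (fun _ _ _ i hi hyz hy => fix_of_not_mv (h i hi) hy (Δ.mem_Pan_of_δ hyz)) hd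

section Sys

variable (S : Sys Δ G p)

include S

/-- convexity -/
theorem fix_conv {x : G} {c d e : C} (hc : x • c = c) (hd : x • d = d) (h : Δ.δ c d = Δ.δ c e * Δ.δ e d)
    (hl : ℓ (Δ.δ c e * Δ.δ e d) = ℓ (Δ.δ c e) + ℓ (Δ.δ e d)) : x • e = e := by
  have h1 : Δ.δ c (x • e) = Δ.δ c e := by rw [← S.iso x c e, hc]
  have h2 : Δ.δ (x • e) d = Δ.δ e d := by rw [← S.iso x e d, hd]
  exact Δ.between_unique hl h1 h2 rfl rfl

variable [F : OppRes.Cox cs]

/-- two fixed chambers which are opposite in a residue -/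
theorem fix_opp (hth : Δ.Thick) {x : G} (hu : Uni Δ x) {J : Set I} {c d : C} (hc : x • c = c) (hd : x • d = d)
    (h : Δ.δ c d = wJ cs J) : ∀ e ∈ Δ.Res J c, x • e = e := by
  refine Rigid.rigid (Δ' := Δ) (φ := fun e => x • e) (ψ := fun e => e) hth ?_ ?_ ?_ h hd
  · intro u _ v _; exact S.iso x u v
  · intro u _ v _; rfl
  · intro j hj e he
    have h1 : ℓ (cs.simple j * wJ cs J) + 1 = ℓ (wJ cs J) := by
      have := F.len_mul_wJ (J := J) (v := cs.simple j) (Tits.Exchange.simple_mem_WJ cs hj)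
      rwa [cs.length_simple] at this
    have h2 : Δ.δ c d = cs.simple j * (cs.simple j * wJ cs J) := by
      rw [← mul_assoc, cs.simple_mul_simple_self, one_mul, h]
    have h3 : ℓ (cs.simple j * (cs.simple j * wJ cs J)) = ℓ (cs.simple j) + ℓ (cs.simple j * wJ cs J) := by
      rw [← mul_assoc, cs.simple_mul_simple_self, one_mul, cs.length_simple]; omega
    obtain ⟨f, hf1, hf2⟩ := Δ.exists_between h2 h3
    have hf : x • f = f := fix_conv S hc hd (by rw [hf1, hf2, h2]) (by rw [hf1, hf2, h3])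
    exact hu j c f hc hf (Δ.mem_Pan_of_δ hf1) (fun h => Δ.ne_of_δ_simple hf1 h.symm) e he

variable [hp : Fact p.Prime]

omit hp F in
theorem mem_dis_swap {a b : G} {w : W} (h : w ∈ Dis Δ a b) : w⁻¹ ∈ Dis Δ b a := by
  obtain ⟨⟨c, hc⟩, d, hd⟩ := h
  refine ⟨⟨b • d, ?_⟩, a⁻¹ • c, ?_⟩
  · rw [inv_smul_smul, Δ.symm, hd]
  · rw [smul_inv_smul, Δ.symm, hc]

omit hp F in
theorem dis_swap {a b : G} (h : Dis Δ a b ⊆ {1}) : Dis Δ b a ⊆ {1} := by
  intro w hw
  have h1 := h (mem_dis_swap S hw)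
  rw [Set.mem_singleton_iff] at h1 ⊢
  exact inv_eq_one.1 h1

omit hp F in
theorem dis_conjR {a b : G} (h : Dis Δ a b ⊆ {1}) (g : G) : Dis Δ a (g * b * g⁻¹) ⊆ {1} := by
  rw [dis_conj S]; exact h

/-- if `a` and `b` stabilise a residue they fix a common chamber of it -/
theorem common {a b : G} (hab : Good p a b) (hD : Dis Δ a b ⊆ {1}) {J : Set I} {c : C}
    (ha : a • c ∈ Δ.Res J c) (hb : b • c ∈ Δ.Res J c) : ∃ d ∈ Δ.Res J c, a • d = d ∧ b • d = d := by
  have h1 : (a * b) • c ∈ Δ.Res J c := by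
    rw [mul_smul]
    have h2 := S.smul_mem_Res (g := a) hb
    rw [Δ.Res_eq_of_mem ha] at h2
    exact h2
  obtain ⟨d, hd, hdd⟩ := exists_fixed_res S hab.mul h1
  have h2 : b • d = a⁻¹ • d := by rw [eq_inv_smul_iff, ← mul_smul, hdd]
  have h3 := hD (mem_dis S h2)
  rw [Set.mem_singleton_iff] at h3
  have h4 : b • d = d := (Δ.eq_of_δ_eq_one h3).symm
  refine ⟨d, hd, ?_, h4⟩
  rw [h4, eq_inv_smul_iff] at h2
  exact h2

theorem exists_common {a b : G} (hab : Good p a b) (hD : Dis Δ a b ⊆ {1}) [Nonempty C] : ∃ d : C, a • d = d ∧ b • d = d := by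
  obtain ⟨c⟩ := ‹Nonempty C›
  obtain ⟨d, -, h⟩ := common S hab hD (J := Set.univ) (c := c) (by rw [Res_univ]; trivial) (by rw [Res_univ]; trivial)
  exact ⟨d, h⟩

theorem nonemptyC {a b : G} (hab : Good p a b) : Nonempty C := by
  obtain ⟨c, -⟩ := exists_fixed S hab.mul
  exact ⟨c⟩

theorem stF_left (hth : Δ.Thick) {a b : G} (hab : Good p a b) (hD : Dis Δ a b ⊆ {1}) : StF Δ a := by
  intro J c hc
  have := nonemptyC S hab
  obtain ⟨f, -, hf⟩ := exists_common S hab hD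
  obtain ⟨g, hg⟩ := exists_smul S hth f c
  obtain ⟨d, hd, h, -⟩ := common S (hab.conjR g) (dis_conjR S hD g) (J := J) hc (by
    have h1 : (g * b * g⁻¹) • c = c := by rw [mul_smul, mul_smul, ← hg, inv_smul_smul, hf]
    rw [h1]; exact Δ.self_mem_Res J c)
  exact ⟨d, hd, h⟩

theorem stF_right (hth : Δ.Thick) {a b : G} (hab : Good p a b) (hD : Dis Δ a b ⊆ {1}) : StF Δ b :=
  stF_left S hth hab.swap (dis_swap S hD)

omit hp F in
theorem mv_conj {i : I} {x g : G} (h : Mv Δ i (g * x * g⁻¹)) : Mv Δ i x := by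
  obtain ⟨c, d, hc, hd, hne⟩ := h
  refine ⟨g⁻¹ • c, g⁻¹ • d, ?_, by rw [S.iso, hd], fun h1 => hne ?_⟩
  · rw [mul_smul, mul_smul, ← eq_inv_smul_iff] at hc
    exact hc
  · rw [mul_smul, mul_smul, h1, smul_inv_smul]

theorem uni_left (hth : Δ.Thick) {a b : G} (hab : Good p a b) (hD : Dis Δ a b ⊆ {1}) : Uni Δ a := by
  intro i c d hc hd hdc hne e he
  by_contra hcon
  have hMa : Mv Δ i a := by
    rcases he with rfl | he
    · exact absurd hc hcon
    · exact ⟨c, e, hc, he, hcon⟩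
  have hMb : ¬ Mv Δ i b := fun h => not_mv_both S hD i ⟨hMa, h⟩
  have := nonemptyC S hab
  obtain ⟨f, -, hf⟩ := exists_common S hab hD
  obtain ⟨g, hg⟩ := exists_smul S hth f c
  have hMb' : ¬ Mv Δ i (g * b * g⁻¹) := fun h => hMb (mv_conj S h)
  have h1 : (g * b * g⁻¹) • c = c := by rw [mul_smul, mul_smul, ← hg, inv_smul_smul, hf]
  have hb : ∀ y ∈ Δ.Pan i c, (g * b * g⁻¹) • y = y := fun y hy => fix_of_not_mv hMb' h1 hy
  have hz := (hab.conjR g).mul
  have hzc : (a * (g * b * g⁻¹)) • c = c := by rw [mul_smul, h1, hc]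
  have hzd : (a * (g * b * g⁻¹)) • d = d := by rw [mul_smul, hb d hdc, hd]
  have h2 := fix_pan S (mem_U S hz hzc) hdc hne hzd he
  rw [mul_smul, hb e he] at h2
  exact hcon h2

theorem uni_right (hth : Δ.Thick) {a b : G} (hab : Good p a b) (hD : Dis Δ a b ⊆ {1}) : Uni Δ b :=
  uni_left S hth hab.swap (dis_swap S hD)

/-- the commutator of `a` and `b` if they fix a common chamber, and the commutator fixes two opposite chambers -/
theorem comm_eq_one {a b : G} (hab : Good p a b) {x0 u v : C} (ha : a • x0 = x0) (hb : b • x0 = x0)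
    (hux : (a⁻¹ * b⁻¹ * a * b) • u = u) (hvx : (a⁻¹ * b⁻¹ * a * b) • v = v) (huv : Δ.Opp u v) :
    a * b = b * a := by
  -- the commutator is a `p`-element
  have hz : a * b ∈ S.U x0 := mem_U S hab.mul (by rw [mul_smul, hb, ha])
  have hk : a⁻¹ * b⁻¹ * a * b ∈ S.U x0 := by
    have h1 : a⁻¹ * (a * b)⁻¹ * a⁻¹⁻¹ ∈ S.U x0 := by
      refine S.max x0 ((S.U x0).map (MulAut.conj a⁻¹).toMonoidHom) ((S.isP x0).map _) ?_ ?_
      · rintro _ ⟨v, hv, rfl⟩
        have h2 : v • x0 = x0 := S.fix x0 v hv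
        have h3 : a⁻¹ • x0 = x0 := by rw [inv_smul_eq_iff, ha]
        simp only [MulEquiv.coe_toMonoidHom, MulAut.conj_apply, inv_inv]
        rw [mul_smul, mul_smul, ha, h2, h3]
      · exact ⟨(a * b)⁻¹, inv_mem hz, by simp [MulAut.conj_apply]⟩
    have h2 := mul_mem h1 hz
    have e : a⁻¹ * (a * b)⁻¹ * a⁻¹⁻¹ * (a * b) = a⁻¹ * (b⁻¹ * a⁻¹) * a * (a * b) := by group
    have e2 : (a⁻¹ * (a * b)⁻¹ * a⁻¹⁻¹) * (a * b) = a⁻¹ * b⁻¹ * a * b := by group
    rwa [e2] at h2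
  have hkP : PE p (a⁻¹ * b⁻¹ * a * b) := by
    obtain ⟨k, hk'⟩ := (S.isP x0) ⟨_, hk⟩
    exact ⟨k, by simpa [Subtype.ext_iff] using hk'⟩
  have h1 := S.free u v huv _ (mem_U S hkP hux) hvx
  have h2 : b * a * (a⁻¹ * b⁻¹ * a * b) = b * a * 1 := by rw [h1]
  rw [mul_one] at h2
  rw [← h2]; group

end Sys

end Cfsg.Agent.H148.Cls
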