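import Mathlib
import Cfsg.Agent.H148.Cls.Alt
import Cfsg.Agent.H148.Cls.Fix

/-!
# S2451, helper148: residues of rank two (`m` even), `Dis Δ a b ⊆ {1}`

`x` does not move the type `j`; the fixed chambers of `x` in a `{i, j}`-residue on which `x` is not trivial are at
distance `≤ k` from a central panel, `2 k + 2 ≤ m`.  For `a` (not moving `j`) and `b` (not moving `i`) one has
`2 k + 2 = m` and a suitable product `a * b ^ g` has an isolated fixed chamber.
-/

set_option autoImplicit false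
set_option linter.unusedSectionVars false

open scoped Pointwise

namespace Cfsg.Agent.H148.Cls

open Cfsg.Agent.Tits.Core Cfsg.Agent.Tits.Core.Bldg Cfsg.Agent.Tits.Exchange Cfsg.Agent.Tits Cfsg.Agent.FixBN
open Cfsg.Agent.H197.Cls Cfsg.Agent.H234.CoxB

variable {I : Type*} {M : CoxeterMatrix I} {W : Type*} [Group W] {cs : CoxeterSystem M W} {C : Type*}

local prefix:100 "ℓ" => cs.length

theorem lt_add (k l : I) (a b : ℕ) : lt (lt k l a) (lt l k a) b = lt k l (a + b) := by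
  induction a generalizing k l with
  | zero => simp
  | succ a ih => rw [lt_succ, lt_succ, Nat.succ_add, lt_succ, ih]

section Bldg

variable (Δ : Bldg cs C)

/-- the triangle inequality -/
theorem len_tri (x y z : C) : ℓ (Δ.δ x z) ≤ ℓ (Δ.δ x y) + ℓ (Δ.δ y z) := by
  generalize hn : ℓ (Δ.δ y z) = n
  induction n generalizing z with
  | zero =>
    rw [cs.length_eq_zero_iff] at hn
    rw [Δ.eq_of_δ_eq_one hn]
    omega
  | succ n ih =>
    have hne : Δ.δ y z ≠ 1 := fun h1 => by rw [h1, cs.length_one] at hn; omega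
    obtain ⟨i, hi⟩ := cs.exists_rightDescent_of_ne_one hne
    rw [cs.isRightDescent_iff] at hi
    obtain ⟨z', hz, hz'⟩ := Δ.exists_step y z i
    have h1 := ih z' (by rw [hz']; omega)
    rcases Δ.step x z' z i (Δ.δ_symm_simple hz) with h2 | h2
    · rw [h2]
      have := cs.length_mul_le (Δ.δ x z') (cs.simple i)
      rw [cs.length_simple] at this
      omega
    · rw [h2]; omega

/-- equality in the triangle inequality -/
theorem δ_eq_of_len {x y z : C} (h : ℓ (Δ.δ x z) = ℓ (Δ.δ x y) + ℓ (Δ.δ y z)) :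
    Δ.δ x z = Δ.δ x y * Δ.δ y z := by
  generalize hn : ℓ (Δ.δ y z) = n at h
  induction n generalizing z with
  | zero =>
    rw [cs.length_eq_zero_iff] at hn
    rw [hn, mul_one, Δ.eq_of_δ_eq_one hn]
  | succ n ih =>
    have hne : Δ.δ y z ≠ 1 := fun h1 => by rw [h1, cs.length_one] at hn; omega
    obtain ⟨i, hi⟩ := cs.exists_rightDescent_of_ne_one hne
    rw [cs.isRightDescent_iff] at hi
    obtain ⟨z', hz, hz'⟩ := Δ.exists_step y z i
    have h0 : ℓ (Δ.δ y z') = n := by rw [hz']; omega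
    have h1 := len_tri Δ x y z'
    have h2 := len_tri Δ x z' z
    rw [Δ.δ_symm_simple hz, cs.length_simple] at h2
    have h3 := ih h0 (by omega)
    rcases Δ.step x z' z i (Δ.δ_symm_simple hz) with h4 | h4
    · rw [h4, h3, hz', mul_assoc, mul_assoc, cs.simple_mul_simple_self, mul_one]
    · rw [h4] at h; omega

/-- a step from `x` to a chamber -/
theorem exists_adj (x : C) (i : I) : ∃ y, Δ.δ x y = cs.simple i := by
  obtain ⟨z, hz, -⟩ := Δ.exists_step x x i
  exact ⟨z, hz⟩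

end Bldg

variable {Δ : Bldg cs C} {G : Type*} [Group G] [MulAction G C] {p : ℕ}

/-- The fixed chambers of `x` in the `{i, j}`-residue of `u` : distance `≤ k` from a central panel of `u`. -/
structure Ctr (Δ : Bldg cs C) (x : G) (i j : I) (m k : ℕ) (u : C) : Prop where
  le : 2 * k + 2 ≤ m
  fix : ∀ y ∈ Δ.Pan (lt j i k) u, x • y = y
  near : ∀ y ∈ Δ.Res {i, j} u, x • y = y → ∃ u' ∈ Δ.Pan (lt j i k) u, ℓ (Δ.δ u' y) ≤ k
  fixi : 1 ≤ k → ∀ y ∈ Δ.Pan i u, x • y = y

section Sys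

variable (S : Sys Δ G p) [F : OppRes.Cox cs]

include S

theorem Ctr.conj {x : G} {i j : I} {m k : ℕ} {u : C} (h : Ctr Δ x i j m k u) (g : G) :
    Ctr Δ (g * x * g⁻¹) i j m k (g • u) := by
  have e : ∀ y : C, (g * x * g⁻¹) • y = y ↔ x • (g⁻¹ • y) = g⁻¹ • y := by
    intro y
    rw [mul_smul, mul_smul, ← eq_inv_smul_iff]
  have h1 : ∀ (t : I) (y : C), y ∈ Δ.Pan t (g • u) → g⁻¹ • y ∈ Δ.Pan t u := by
    intro t y hy
    have := smul_mem_Pan S (g := g⁻¹) hy
    rwa [inv_smul_smul] at this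
  refine ⟨h.le, fun y hy => (e y).2 (h.fix _ (h1 _ y hy)), fun y hy hxy => ?_,
    fun hk y hy => (e y).2 (h.fixi hk _ (h1 _ y hy))⟩
  have h2 := S.smul_mem_Res (g := g⁻¹) hy
  rw [inv_smul_smul] at h2
  obtain ⟨u', hu', hl⟩ := h.near _ h2 ((e y).1 hxy)
  refine ⟨g • u', smul_mem_Pan S hu', ?_⟩
  rw [← S.iso g⁻¹, inv_smul_smul]
  exact hl

/-- existence of the centre -/
theorem exists_ctr (hth : Δ.Thick) {x : G} (hu : Uni Δ x) {i j : I} (hj : ¬ Mv Δ j x) {m : ℕ}
    (hm : orderOf (cs.simple j * cs.simple i) = m) (hm0 : m ≠ 0) (hme : Even m) {c0 y0 : C} (hc0 : x • c0 = c0)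
    (hy0 : y0 ∈ Δ.Res {i, j} c0) (hne : x • y0 ≠ y0) : ∃ k, ∃ u ∈ Δ.Res {i, j} c0, Ctr Δ x i j m k u := by
  classical
  have hm' : orderOf (cs.simple i * cs.simple j) = m := by rw [orderOf_comm', hm]
  set R := Δ.Res {i, j} c0 with hR
  have hRmem : ∀ c ∈ R, ∀ d ∈ R, Δ.δ c d ∈ WJ cs {i, j} := fun c hc d hd => Δ.δ_mem_of_mem_Res hc hd
  have hlen : ∀ c ∈ R, ∀ d ∈ R, ℓ (Δ.δ c d) ≤ m := fun c hc d hd => len_le hm' hm0 (hRmem c hc d hd)
  -- a pair at maximal distance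
  let P : ℕ → Prop := fun n => ∃ c ∈ R, ∃ d ∈ R, x • c = c ∧ x • d = d ∧ ℓ (Δ.δ c d) = n
  have hP0 : P 0 := ⟨c0, Δ.self_mem_Res _ _, c0, Δ.self_mem_Res _ _, hc0, hc0, by rw [Δ.δ_self, cs.length_one]⟩
  obtain ⟨n, hnP, hmax⟩ : ∃ n, P n ∧ ∀ n', P n' → n' ≤ n := by
    refine ⟨Nat.findGreatest P m, Nat.findGreatest_spec (Nat.zero_le m) hP0, fun n' hn' => ?_⟩
    refine Nat.le_findGreatest ?_ hn'
    obtain ⟨c, hc, d, hd, -, -, h⟩ := hn'
    rw [← h]; exact hlen c hc d hd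
  have hmax' : ∀ c ∈ R, ∀ d ∈ R, x • c = c → x • d = d → ℓ (Δ.δ c d) ≤ n := fun c hc d hd h1 h2 =>
    hmax _ ⟨c, hc, d, hd, h1, h2, rfl⟩
  obtain ⟨c, hc, d, hd, hxc, hxd, hcd⟩ := hnP
  have hnm : n < m := by
    by_contra hcon
    have h1 := eq_wJ_of_len hm' hm0 (hRmem c hc d hd) (by omega)
    have h2 := fix_opp S hth hu hxc hxd h1 y0 (by rw [Δ.Res_eq_of_mem hc]; exact hy0)
    exact hne h2
  -- the words of maximal length start with `j`
  have hnoI : ∀ c ∈ R, ∀ d ∈ R, x • c = c → x • d = d → Δ.δ c d ≠ alt cs i j n := by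
    intro c hc d hd hxc hxd h
    obtain ⟨c', hc'⟩ := exists_adj Δ c j
    have h1 : Δ.δ c' d = alt cs j i (n + 1) := by
      rw [alt_succ]
      refine Δ.δ_mul_of (Δ.δ_symm_simple hc') h ?_
      rw [← alt_succ, len_alt hm (by omega), cs.length_simple, len_alt hm' (by omega)]
      omega
    have h2 := hmax' c' (Δ.mem_Res_trans hc (Δ.Pan_subset_Res (by simp) c (Δ.mem_Pan_of_δ hc'))) d hd
      (fix_of_not_mv hj hxc (Δ.mem_Pan_of_δ hc')) hxd
    rw [h1, len_alt hm (by omega)] at h2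
    omega
  have hcd' : Δ.δ c d = alt cs j i n := by
    have h1 := exists_alt (hRmem c hc d hd)
    rw [hcd] at h1
    exact h1.resolve_left (hnoI c hc d hd hxc hxd)
  have hodd : ¬ Even n := by
    intro hev
    refine hnoI d hd c hc hxd hxc ?_
    rw [Δ.symm, hcd', alt_inv, lt_even _ _ hev, lt_even _ _ hev]
  obtain ⟨k, hk⟩ : ∃ k, n = 2 * k + 1 := by
    rcases Nat.even_or_odd n with h | h
    · exact absurd h hodd
    · exact h
  have hkm : 2 * k + 2 ≤ m := by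
    obtain ⟨m', hm'⟩ := hme
    omega
  set t := lt j i k with ht
  set t' := lt i j k with ht'
  have hlt1 : ∀ n', n' ≤ m → ℓ (alt cs j i n') = n' := fun n' h => len_alt hm h
  -- lengths of the words starting with `t`, `t'`
  have hmt : orderOf (cs.simple t * cs.simple t') = m := by
    rcases lt_cases j i k with ⟨h1, h2⟩ | ⟨h1, h2⟩
    · rw [ht, ht', h1, h2, hm]
    · rw [ht, ht', h1, h2, hm']
  have hmt' : orderOf (cs.simple t' * cs.simple t) = m := by rw [orderOf_comm', hmt]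
  have hlt : ∀ n', n' ≤ m → ℓ (alt cs t t' n') = n' := fun n' h => len_alt hmt h
  have hlt' : ∀ n', n' ≤ m → ℓ (alt cs t' t n') = n' := fun n' h => len_alt hmt' h
  -- the middle of the path
  have hsplit : Δ.δ c d = alt cs j i k * alt cs t t' (k + 1) := by
    rw [hcd', hk, show 2 * k + 1 = k + (k + 1) by ring, alt_add]
  obtain ⟨u, hcu, hud⟩ := Δ.exists_between hsplit (by
    rw [← hsplit, hcd', hlt1 _ (by omega), hlt1 _ (by omega), hlt _ (by omega)]; omega)
  obtain ⟨u1, huu, hu1d⟩ := Δ.exists_between (hud.trans (alt_succ t t' k)) (by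
    rw [← alt_succ, hlt _ (by omega), cs.length_simple, hlt' _ (by omega)]; omega)
  have hxu : x • u = u := fix_conv S hxc hxd (by rw [hcu, hud, ← hsplit]) (by
    rw [hcu, hud, ← hsplit, hcd', hlt1 _ (by omega), hlt1 _ (by omega), hlt _ (by omega)]; omega)
  have hxu1 : x • u1 = u1 := fix_conv S hxu hxd (by rw [huu, hu1d, hud, alt_succ]) (by
    rw [huu, hu1d, ← alt_succ, hlt _ (by omega), cs.length_simple, hlt' _ (by omega)]; omega)
  have huR : u ∈ R := by
    have h1 : u ∈ Δ.Res {i, j} c := by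
      rw [mem_Res, hcu, Set.pair_comm]; exact alt_mem j i k
    exact Δ.mem_Res_trans hc h1
  have hu1R : u1 ∈ R := by
    refine Δ.mem_Res_trans huR (Δ.Pan_subset_Res ?_ u (Δ.mem_Pan_of_δ huu))
    rcases lt_cases j i k with ⟨h1, h2⟩ | ⟨h1, h2⟩
    · rw [ht, h1]; simp
    · rw [ht, h1]; simp
  have hpan : ∀ y ∈ Δ.Pan t u, x • y = y := hu t u u1 hxu hxu1 (Δ.mem_Pan_of_δ huu)
    (fun h => Δ.ne_of_δ_simple huu h.symm)
  have hfixi : 1 ≤ k → ∀ y ∈ Δ.Pan i u, x • y = y := by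
    intro hk1
    by_cases hti : t = i
    · rw [← hti]; exact hpan
    · -- the panel before
      obtain ⟨k', rfl⟩ : ∃ k', k = k' + 1 := ⟨k - 1, by omega⟩
      have h1 : lt j i k' = i := by
        rcases lt_cases j i k' with ⟨h1, h2⟩ | ⟨h1, h2⟩
        · rw [ht, lt_succ, h2] at hti; exact absurd rfl hti
        · exact h1
      obtain ⟨u0, hcu0, hu0u⟩ := Δ.exists_between (hcu.trans (alt_succ' j i k')) (by
        rw [← alt_succ', hlt1 _ (by omega), hlt1 _ (by omega), cs.length_simple])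
      have hxu0 : x • u0 = u0 := fix_conv S hxc hxu (by rw [hcu0, hu0u, hcu, alt_succ']) (by
        rw [hcu0, hu0u, ← alt_succ', hlt1 _ (by omega), hlt1 _ (by omega), cs.length_simple])
      rw [h1] at hu0u
      exact hu i u u0 hxu hxu0 (Δ.mem_Pan_symm (Δ.mem_Pan_of_δ hu0u)) (Δ.ne_of_δ_simple hu0u)
  -- far chambers
  have hfar : ∀ c ∈ R, x • c = c → ∀ u q z : C, z ∈ R → x • z = z → Δ.δ c u = alt cs j i k → Δ.δ u q = cs.simple t →
      Δ.δ q z = alt cs t' t (k + 1) → False := by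
    intro c hc hxc u q z hz hxz h1 h2 h3
    have h4 : Δ.δ u z = alt cs t t' (k + 2) := by
      rw [alt_succ]
      refine Δ.δ_mul_of h2 h3 ?_
      rw [← alt_succ, hlt _ (by omega), cs.length_simple, hlt' _ (by omega)]
      omega
    have h5 : Δ.δ c z = alt cs j i (2 * k + 2) := by
      rw [show 2 * k + 2 = k + (k + 2) by ring, alt_add]
      refine Δ.δ_mul_of h1 h4 ?_
      rw [← alt_add, hlt1 _ (by omega), hlt1 _ (by omega), hlt _ (by omega)]
    have h6 := hmax' c hc z hz hxc hxz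
    rw [h5, hlt1 _ (by omega)] at h6
    omega
  -- `d` sees the panel in the same way
  have hdu1 : Δ.δ d u1 = alt cs j i k := by
    rw [Δ.symm, hu1d, alt_inv]
    congr 1
    · rw [ht, ht', lt_add]; exact lt_even _ _ (by exact ⟨k, rfl⟩)
    · rw [ht, ht', lt_add]; exact lt_even _ _ (by exact ⟨k, rfl⟩)
  refine ⟨k, u, huR, hkm, hpan, ?_, hfixi⟩
  intro y hy hxy
  have hyR : y ∈ R := Δ.mem_Res_trans huR hy
  obtain ⟨q, hq⟩ := Δ.exists_isProj {t} u y
  have hqp : q ∈ Δ.Pan t u := by rw [Pan_eq_Res]; exact hq.mem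
  refine ⟨q, hqp, ?_⟩
  by_contra hcon
  push Not at hcon
  have hxq : x • q = q := hpan q hqp
  have hqR : q ∈ R := by
    refine Δ.mem_Res_trans huR (Δ.Pan_subset_Res ?_ u hqp)
    rcases lt_cases j i k with ⟨h1, h2⟩ | ⟨h1, h2⟩
    · rw [ht, h1]; simp
    · rw [ht, h1]; simp
  -- the word from `q` to `y` starts with `t'`
  have hmin : ℓ (Δ.δ q y) < ℓ (cs.simple t * Δ.δ q y) := by
    have h1 := (isMinR_iff cs).1 hq.isMinR t rfl
    rw [← cs.length_inv, ← cs.length_inv (Δ.δ y q * _), mul_inv_rev, cs.inv_simple, ← Δ.symm y q] at h1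
    exact h1
  have hset : ({i, j} : Set I) = {t, t'} := by
    rcases lt_cases j i k with ⟨h1, h2⟩ | ⟨h1, h2⟩
    · rw [ht, ht', h1, h2, Set.pair_comm]
    · rw [ht, ht', h1, h2]
  have hqy : Δ.δ q y = alt cs t' t (ℓ (Δ.δ q y)) := by
    have h1 := hRmem q hqR y hyR
    rw [hset] at h1
    rcases exists_alt h1 with h2 | h2
    · exfalso
      obtain ⟨n', hn'⟩ : ∃ n', ℓ (Δ.δ q y) = n' + 1 := ⟨ℓ (Δ.δ q y) - 1, by omega⟩
      have h3 := hlen q hqR y hyR
      rw [h2, hn', alt_succ, ← mul_assoc, cs.simple_mul_simple_self, one_mul, ← alt_succ] at hmin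
      rw [hlt _ (by omega), hlt' _ (by omega)] at hmin
      omega
    · exact h2
  obtain ⟨e, he⟩ : ∃ e, ℓ (Δ.δ q y) = k + 1 + e := ⟨ℓ (Δ.δ q y) - (k + 1), by omega⟩
  have hle := hlen q hqR y hyR
  rw [he, alt_add] at hqy
  have hmt2 : ∀ n', n' ≤ m → ℓ (alt cs (lt t' t (k + 1)) (lt t t' (k + 1)) n') = n' := by
    intro n' hn'
    rcases lt_cases t' t (k + 1) with ⟨h1, h2⟩ | ⟨h1, h2⟩
    · rw [h1, h2]; exact hlt' _ hn'
    · rw [h1, h2]; exact hlt _ hn'
  obtain ⟨z, hqz, hzy⟩ := Δ.exists_between hqy (by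
    rw [← alt_add, hlt' _ (by omega), hlt' _ (by omega), hmt2 _ (by omega)])
  have hxz : x • z = z := fix_conv S hxq hxy (by rw [hqz, hzy, hqy]) (by
    rw [hqz, hzy, ← alt_add, hlt' _ (by omega), hlt' _ (by omega), hmt2 _ (by omega)])
  have hzR : z ∈ R := by
    have h1 : z ∈ Δ.Res {i, j} q := by
      rw [mem_Res, hqz, hset, Set.pair_comm]; exact alt_mem t' t (k + 1)
    exact Δ.mem_Res_trans hqR h1
  by_cases hqu : q = u
  · -- then `q ≠ u1`
    have h1 : Δ.δ u1 q = cs.simple t := by rw [hqu]; exact Δ.δ_symm_simple huu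
    exact hfar d hd hxd u1 q z hzR hxz hdu1 h1 hqz
  · have h1 : Δ.δ u q = cs.simple t := Δ.δ_eq_of_mem_Pan (Δ.self_mem_Pan t u) hqp (Ne.symm hqu)
    exact hfar c hc hxc u q z hzR hxz hcu h1 hqz

end Sys

end Cfsg.Agent.H148.Cls
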