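import Mathlib
import Cfsg.Agent.H148.Cls.Two

/-!
# S2451, helper148: residues of rank two (`m` even), `Dis Δ a b ⊆ {1}`, second part

`two_main` : the radii of the fixed sets of `a` and `b` are maximal and a suitable product `a * b ^ g` has an
isolated fixed chamber (`IsoJ`).
-/

set_option autoImplicit false
set_option linter.unusedSectionVars false

open scoped Pointwise

namespace Cfsg.Agent.H148.Cls

open Cfsg.Agent.Tits.Core Cfsg.Agent.Tits.Core.Bldg Cfsg.Agent.Tits.Exchange Cfsg.Agent.Tits Cfsg.Agent.FixBN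
open Cfsg.Agent.H197.Cls Cfsg.Agent.H234.CoxB

variable {I : Type*} {M : CoxeterMatrix I} {W : Type*} [Group W] {cs : CoxeterSystem M W} {C : Type*}

local prefix:100 "ℓ" => cs.length

variable {Δ : Bldg cs C} {G : Type*} [Group G] [MulAction G C] {p : ℕ}

/-- `z` has a fixed chamber which is isolated in its `J`-residue -/
def IsoJ (Δ : Bldg cs C) (J : Set I) (z : G) : Prop :=
  ∃ x : C, z • x = x ∧ ∀ y ∈ Δ.Res J x, z • y = y → y = x

section Sys

variable (S : Sys Δ G p) [F : OppRes.Cox cs] [hp : Fact p.Prime]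

include S

omit hp F in
theorem IsoJ.conj {J : Set I} {z : G} (h : IsoJ Δ J z) (g : G) : IsoJ Δ J (g * z * g⁻¹) := by
  obtain ⟨x, hx, hy⟩ := h
  refine ⟨g • x, by rw [mul_smul, mul_smul, inv_smul_smul, hx], fun y hy' hzy => ?_⟩
  have h1 := S.smul_mem_Res (g := g⁻¹) hy'
  rw [inv_smul_smul] at h1
  rw [mul_smul, mul_smul, ← eq_inv_smul_iff] at hzy
  have h2 := hy _ h1 hzy
  rw [← h2, smul_inv_smul]

omit hp in
/-- the fixed chambers of `a * b` are the common fixed chambers -/
theorem fix_mul {a b : G} (hD : Dis Δ a b ⊆ {1}) {y : C} (h : (a * b) • y = y) : a • y = y ∧ b • y = y := by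
  have h2 : b • y = a⁻¹ • y := by rw [eq_inv_smul_iff, ← mul_smul, h]
  have h3 := hD (mem_dis S h2)
  rw [Set.mem_singleton_iff] at h3
  have h4 : b • y = y := (Δ.eq_of_δ_eq_one h3).symm
  refine ⟨?_, h4⟩
  rw [h4, eq_inv_smul_iff] at h2
  exact h2

theorem two_main (hth : Δ.Thick) {a b : G} (hab : Good p a b) (hD : Dis Δ a b ⊆ {1}) {i j : I} {m : ℕ}
    (hm : orderOf (cs.simple j * cs.simple i) = m) (hm0 : m ≠ 0) (hme : Even m) {ka kb : ℕ} {ua ub : C}
    (ha : Ctr Δ a i j m ka ua) (hb : Ctr Δ b j i m kb ub) :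
    2 * ka + 2 = m ∧ 2 * kb + 2 = m ∧ ∃ g : G, IsoJ Δ {i, j} (a * (g * b * g⁻¹)) := by
  have hm' : orderOf (cs.simple i * cs.simple j) = m := by rw [orderOf_comm', hm]
  set t := lt j i ka with ht
  set t' := lt i j ka with ht'
  have hmt : orderOf (cs.simple t * cs.simple t') = m := by
    rcases lt_cases j i ka with ⟨h1, h2⟩ | ⟨h1, h2⟩
    · rw [ht, ht', h1, h2, hm]
    · rw [ht, ht', h1, h2, hm']
  have hmt' : orderOf (cs.simple t' * cs.simple t) = m := by rw [orderOf_comm', hmt]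
  have hlt : ∀ n', n' ≤ m → ℓ (alt cs t t' n') = n' := fun n' h => len_alt hmt h
  have hlt' : ∀ n', n' ≤ m → ℓ (alt cs t' t n') = n' := fun n' h => len_alt hmt' h
  have hset : ({i, j} : Set I) = {t, t'} := by
    rcases lt_cases j i ka with ⟨h1, h2⟩ | ⟨h1, h2⟩
    · rw [ht, ht', h1, h2, Set.pair_comm]
    · rw [ht, ht', h1, h2]
  have ht1 : t ∈ ({i, j} : Set I) := by rw [hset]; simp
  set tb := lt i j kb with htb
  have htb1 : tb ∈ ({i, j} : Set I) := by
    rcases lt_cases i j kb with ⟨h1, h2⟩ | ⟨h1, h2⟩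
    · rw [htb, h1]; simp
    · rw [htb, h1]; simp
  have hm2 : 2 ≤ m := by obtain ⟨m', hm'⟩ := hme; omega
  -- the length
  obtain ⟨L, hLm, hLt⟩ : ∃ L, (L + 1 = m ∨ L + 2 = m) ∧ lt t' t L = tb := by
    by_cases h : tb = t
    · refine ⟨m - 1, by omega, ?_⟩
      rw [h]
      refine lt_odd _ _ ?_
      obtain ⟨m', hm'⟩ := hme
      rw [hm', Nat.not_even_iff_odd]
      exact ⟨m' - 1, by omega⟩
    · refine ⟨m - 2, by omega, ?_⟩
      have h1 : tb = t' := by
        rw [hset] at htb1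
        rcases htb1 with h1 | h1
        · exact absurd h1 h
        · exact h1
      rw [h1]
      refine lt_even _ _ ?_
      obtain ⟨m', hm'⟩ := hme
      exact ⟨m' - 1, by omega⟩
  -- move the centre of `b`
  obtain ⟨v1, hv1⟩ := Δ.exists_δ ua (alt cs t' t L)
  obtain ⟨g, hg⟩ := exists_smul S hth ub v1
  have hb' := hb.conj S g
  rw [hg] at hb'
  set b' := g * b * g⁻¹ with hb'def
  have hab' : Good p a b' := hab.conjR g
  have hD' : Dis Δ a b' ⊆ {1} := dis_conjR S hD g
  have hv1R : v1 ∈ Δ.Res {i, j} ua := by rw [mem_Res, hv1, hset, Set.pair_comm]; exact alt_mem t' t L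
  have haua : a • ua = ua := ha.fix ua (Δ.self_mem_Pan _ _)
  have hbv1 : b' • v1 = v1 := hb'.fix v1 (Δ.self_mem_Pan _ _)
  have hbua : b' • ua ∈ Δ.Res {i, j} ua := by
    have h1 : ua ∈ Δ.Res {i, j} v1 := Δ.mem_Res_symm hv1R
    have h2 := S.smul_mem_Res (g := b') h1
    rw [hbv1] at h2
    rw [Δ.Res_eq_of_mem hv1R] at h2
    exact h2
  -- distances between the panels
  have hdist : ∀ u' ∈ Δ.Pan t ua, ∀ v' ∈ Δ.Pan tb v1, (u' = ua ∧ v' = v1) ∨ L < ℓ (Δ.δ u' v') ∨
      (L + 1 = m ∧ L ≤ ℓ (Δ.δ u' v')) := by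
    intro u' hu' v' hv'
    by_cases hvv : v' = v1
    · by_cases huu : u' = ua
      · exact Or.inl ⟨huu, hvv⟩
      · right; left
        have h1 : Δ.δ u' ua = cs.simple t := Δ.δ_eq_of_mem_Pan hu' (Δ.self_mem_Pan t ua) huu
        have h2 : Δ.δ u' v' = cs.simple t * alt cs t' t L := by
          rw [hvv]
          refine Δ.δ_mul_of h1 hv1 ?_
          rw [← alt_succ, hlt _ (by omega), cs.length_simple, hlt' _ (by omega)]; omega
        rw [h2, ← alt_succ, hlt _ (by omega)]; omega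
    · have h0 : Δ.δ v1 v' = cs.simple tb := Δ.δ_eq_of_mem_Pan (Δ.self_mem_Pan tb v1) hv' (Ne.symm hvv)
      have h2 : Δ.δ ua v' = alt cs t' t (L + 1) := by
        rw [alt_succ', hLt]
        refine Δ.δ_mul_of hv1 h0 ?_
        rw [← hLt, ← alt_succ', hlt' _ (by omega), hlt' _ (by omega), cs.length_simple]
      by_cases huu : u' = ua
      · right; left
        rw [huu, h2, hlt' _ (by omega)]; omega
      · right
        have h1 : Δ.δ u' ua = cs.simple t := Δ.δ_eq_of_mem_Pan hu' (Δ.self_mem_Pan t ua) huu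
        rcases hLm with hL | hL
        · right
          refine ⟨hL, ?_⟩
          rcases Δ.step_left (z := v') h1 with h3 | h3
          · rw [h3]
            have h4 := cs.length_simple_mul (Δ.δ ua v') t
            rw [h2, hlt' _ (by omega)] at h4
            rw [h2]
            omega
          · rw [h3, h2, hlt' _ (by omega)]; omega
        · left
          have h3 : Δ.δ u' v' = cs.simple t * alt cs t' t (L + 1) := by
            refine Δ.δ_mul_of h1 h2 ?_
            rw [← alt_succ, hlt _ (by omega), cs.length_simple, hlt' _ (by omega)]; omega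
          rw [h3, ← alt_succ, hlt _ (by omega)]; omega
  have hleA := ha.le
  have hleB := hb.le
  have hLeq : ℓ (Δ.δ ua v1) = L := by rw [hv1, hlt' _ (by omega)]
  -- the common fixed chambers
  have hcom : ∀ y ∈ Δ.Res {i, j} ua, a • y = y → b' • y = y →
      L ≤ ka + kb ∧ (L + 2 = m → ℓ (Δ.δ ua y) ≤ ka ∧ ℓ (Δ.δ y v1) ≤ kb) := by
    intro y hy hay hby
    obtain ⟨u', hu', hl1⟩ := ha.near y hy hay
    have hy2 : y ∈ Δ.Res {j, i} v1 := by
      rw [Set.pair_comm, Δ.Res_eq_of_mem hv1R]; exact hy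
    obtain ⟨v', hv', hl2⟩ := hb'.near y hy2 hby
    have h3 := len_tri Δ u' y v'
    have h4 := hdist u' hu' v' hv'
    refine ⟨?_, ?_⟩
    · rcases h4 with ⟨h5, h6⟩ | h5 | h5
      · rw [h5, h6, hLeq] at h3; rw [h5] at hl1; rw [h6] at hl2
        have := Δ.length_δ_comm v1 y
        omega
      · have := Δ.length_δ_comm v' y
        omega
      · have := Δ.length_δ_comm v' y
        omega
    · intro hL
      rcases h4 with ⟨h5, h6⟩ | h5 | h5
      · rw [h5] at hl1; rw [h6] at hl2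
        refine ⟨hl1, ?_⟩
        have := Δ.length_δ_comm v1 y
        omega
      · exfalso
        have := Δ.length_δ_comm v' y
        omega
      · omega
  obtain ⟨x, hx, hax, hbx⟩ := common S hab' hD' (J := {i, j}) (c := ua)
    (by rw [haua]; exact Δ.self_mem_Res _ _) hbua
  have hx1 := hcom x hx hax hbx
  have hL2 : L + 2 = m := by
    rcases hLm with h | h
    · omega
    · exact h
  have hka : 2 * ka + 2 = m := by omega
  have hkb : 2 * kb + 2 = m := by omega
  refine ⟨hka, hkb, g, x, by rw [mul_smul, hbx, hax], ?_⟩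
  -- the position of the common fixed chambers
  have hpos : ∀ y ∈ Δ.Res {i, j} ua, a • y = y → b' • y = y →
      Δ.δ ua y = alt cs t' t ka ∧ Δ.δ ua y * Δ.δ y v1 = alt cs t' t L ∧ ℓ (Δ.δ y v1) = ka := by
    intro y hy hay hby
    obtain ⟨h1, h2⟩ := (hcom y hy hay hby).2 hL2
    have h3 := len_tri Δ ua y v1
    rw [hLeq] at h3
    have h4 : Δ.δ ua v1 = Δ.δ ua y * Δ.δ y v1 := δ_eq_of_len Δ (by rw [hLeq]; omega)
    refine ⟨?_, by rw [← h4, hv1], by omega⟩
    have h5 : Δ.δ ua y ∈ WJ cs {t, t'} := by rw [← hset]; exact hy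
    have h6 := exists_alt h5
    have h7 : ℓ (Δ.δ ua y) = ka := by omega
    rw [h7] at h6
    rcases h6 with h6 | h6
    · rcases ka with _ | k'
      · rw [h6, alt_zero, alt_zero]
      · exfalso
        have h8 : cs.simple t * alt cs t' t L = alt cs t' t k' * Δ.δ y v1 := by
          rw [← hv1, h4, h6, alt_succ, mul_assoc, ← mul_assoc, cs.simple_mul_simple_self, one_mul]
        have h9 := congrArg cs.length h8
        rw [← alt_succ, hlt _ (by omega)] at h9
        have h10 := cs.length_mul_le (alt cs t' t k') (Δ.δ y v1)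
        rw [hlt' _ (by omega)] at h10
        omega
    · exact h6
  intro y hy hzy
  obtain ⟨hay, hby⟩ := fix_mul S hD' hzy
  have hyR : y ∈ Δ.Res {i, j} ua := Δ.mem_Res_trans hx hy
  obtain ⟨h1, h2, h3⟩ := hpos x hx hax hbx
  obtain ⟨h4, h5, h6⟩ := hpos y hyR hay hby
  have h7 : Δ.δ y v1 = Δ.δ x v1 := by
    have h8 := h5.trans h2.symm
    rw [h4, h1] at h8
    exact mul_left_cancel h8
  refine Δ.between_unique (x := ua) (z := v1) (v := alt cs t' t ka) (w := Δ.δ x v1) ?_ h4 h7 h1 rfl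
  rw [← h1, h2, hlt' _ (by omega), h1, hlt' _ (by omega)]
  omega

end Sys

end Cfsg.Agent.H148.Cls
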