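import Mathlib
import Cfsg.Agent.H148.Cls.TwoB
import Cfsg.Agent.H330.ClassProd

/-!
# S2451, helper148: the full hypothesis (all the products of conjugates of `a` and `b` are conjugate), `Dis ⊆ {1}`

* `iso_all` : all the products have an isolated fixed chamber;
* `rank_two` : no such pair in rank two, `m = 4, 6, 8`;
* `iso_center` : the two centres in the `{i, j}`-residue of an isolated fixed chamber, `m = 4`.
-/

set_option autoImplicit false
set_option linter.unusedSectionVars false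

open scoped Pointwise

namespace Cfsg.Agent.H148.Cls

open Cfsg.Agent.Tits.Core Cfsg.Agent.Tits.Core.Bldg Cfsg.Agent.Tits.Exchange Cfsg.Agent.Tits Cfsg.Agent.FixBN
open Cfsg.Agent.H197.Cls Cfsg.Agent.H234.CoxB Cfsg.Agent.H330.ClassProd

variable {I : Type*} {M : CoxeterMatrix I} {W : Type*} [Group W] {cs : CoxeterSystem M W} {C : Type*}

local prefix:100 "ℓ" => cs.length

variable {Δ : Bldg cs C} {G : Type*} [Group G] [MulAction G C] {p : ℕ}

theorem AllConj.good [hp : Fact p.Prime] {a b c : G} (h : AllConj a b c) (hc : PE p c) : Good p a b := by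
  intro g
  obtain ⟨u, hu⟩ := isConj_iff.1 (h 1 g)
  have e : (1 : G) * a * 1⁻¹ * (g * b * g⁻¹) = a * (g * b * g⁻¹) := by group
  rw [e] at hu
  rw [← hu]
  exact hc.conj u

section Sys

variable (S : Sys Δ G p) [F : OppRes.Cox cs] [hp : Fact p.Prime]

include S

omit F hp in
theorem iso_all {a b c : G} (h : AllConj a b c) {J : Set I} {g : G} (hg : IsoJ Δ J (a * (g * b * g⁻¹))) (g' : G) :
    IsoJ Δ J (a * (g' * b * g'⁻¹)) := by
  have key : ∀ g : G, ∃ u : G, u * c * u⁻¹ = a * (g * b * g⁻¹) := by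
    intro g
    obtain ⟨u, hu⟩ := isConj_iff.1 (h 1 g)
    have e : (1 : G) * a * 1⁻¹ * (g * b * g⁻¹) = a * (g * b * g⁻¹) := by group
    exact ⟨u, by rw [hu, e]⟩
  obtain ⟨u, hu⟩ := key g
  obtain ⟨v, hv⟩ := key g'
  have h1 : a * (g' * b * g'⁻¹) = (v * u⁻¹) * (a * (g * b * g⁻¹)) * (v * u⁻¹)⁻¹ := by
    rw [← hu, ← hv]; group
  rw [h1]
  exact hg.conj S _

/-- a moved type gives a residue with a nontrivial action -/
theorem ctr_of_mv (hth : Δ.Thick) {a : G} (hu : Uni Δ a) {i j : I} (hi : Mv Δ i a) (hj : ¬ Mv Δ j a) {m : ℕ}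
    (hm : orderOf (cs.simple j * cs.simple i) = m) (hm0 : m ≠ 0) (hme : Even m) :
    ∃ k u, Ctr Δ a i j m k u := by
  obtain ⟨c, d, hc, hd, hne⟩ := hi
  obtain ⟨k, u, -, h⟩ := exists_ctr S hth hu hj hm hm0 hme hc
    (Δ.Pan_subset_Res (by simp) c (Δ.mem_Pan_of_δ hd)) hne
  exact ⟨k, u, h⟩

/-- all the products have an isolated fixed chamber in a `{i, j}`-residue -/
theorem iso_of_mv (hth : Δ.Thick) {a b c : G} (hab : Good p a b) (hD : Dis Δ a b ⊆ {1}) (h : AllConj a b c) {i j : I}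
    (hi : Mv Δ i a) (hj : Mv Δ j b) {m : ℕ}
    (hm : orderOf (cs.simple j * cs.simple i) = m) (hm0 : m ≠ 0) (hme : Even m) (g : G) :
    IsoJ Δ {i, j} (a * (g * b * g⁻¹)) := by
  have hja : ¬ Mv Δ j a := fun h' => not_mv_both S hD j ⟨h', hj⟩
  have hib : ¬ Mv Δ i b := fun h' => not_mv_both S hD i ⟨hi, h'⟩
  obtain ⟨ka, ua, hua⟩ := ctr_of_mv S hth (uni_left S hth hab hD) hi hja hm hm0 hme
  obtain ⟨kb, ub, hub⟩ := ctr_of_mv S hth (uni_right S hth hab hD) hj hib (by rw [orderOf_comm', hm]) hm0 hme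
  obtain ⟨-, -, g', hg'⟩ := two_main S hth hab hD hm hm0 hme hua hub
  exact iso_all S h hg' g

/-- **Rank two.** -/
theorem rank_two (hth : Δ.Thick) {a b c : G} (hab : Good p a b) (hD : Dis Δ a b ⊆ {1}) (h : AllConj a b c) {i j : I}
    (hI : ∀ k, k = i ∨ k = j) {m : ℕ} (hm : orderOf (cs.simple j * cs.simple i) = m) (hme : Even m)
    (hm4 : 4 ≤ m) (ha : ∃ x : C, a • x ≠ x) (hb : ∃ x : C, b • x ≠ x) : False := by
  have hne := nonemptyC S hab
  -- the core, in one orientation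
  have core : ∀ i j : I, (∀ k, k = i ∨ k = j) → orderOf (cs.simple j * cs.simple i) = m → Mv Δ i a → Mv Δ j b → False := by
    intro i j hI hm hi hj
    have hja : ¬ Mv Δ j a := fun h' => not_mv_both S hD j ⟨h', hj⟩
    have hib : ¬ Mv Δ i b := fun h' => not_mv_both S hD i ⟨hi, h'⟩
    obtain ⟨ka, ua, hua⟩ := ctr_of_mv S hth (uni_left S hth hab hD) hi hja hm (by omega) hme
    obtain ⟨kb, ub, hub⟩ := ctr_of_mv S hth (uni_right S hth hab hD) hj hib (by rw [orderOf_comm', hm]) (by omega) hme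
    obtain ⟨hka, -, g', hg'⟩ := two_main S hth hab hD hm (by omega) hme hua hub
    -- the other choice
    obtain ⟨f, -, hf⟩ := exists_common S hab hD
    obtain ⟨g, hg⟩ := exists_smul S hth f ua
    obtain ⟨x, hx, hxy⟩ := iso_all S h hg' g
    have hbu : (g * b * g⁻¹) • ua = ua := by rw [mul_smul, mul_smul, ← hg, inv_smul_smul, hf]
    have hib' : ¬ Mv Δ i (g * b * g⁻¹) := fun h' => hib (mv_conj S h')
    have huniv : ∀ y : C, y ∈ Δ.Res {i, j} x := by
      intro y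
      have : ({i, j} : Set I) = Set.univ := Set.eq_univ_iff_forall.2 fun k => hI k
      rw [this, Res_univ]; trivial
    obtain ⟨y, hy⟩ := exists_adj Δ ua i
    have h1 : ua = x := hxy ua (huniv _) (by rw [mul_smul, hbu, hua.fix ua (Δ.self_mem_Pan _ _)])
    have h2 : y = x := hxy y (huniv _) (by
      rw [mul_smul, fix_of_not_mv hib' hbu (Δ.mem_Pan_of_δ hy)]
      exact hua.fixi (by omega) y (Δ.mem_Pan_of_δ hy))
    exact Δ.ne_of_δ_simple hy (h1.trans h2.symm)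
  obtain ⟨f, hfa, hfb⟩ := exists_common S hab hD
  obtain ⟨x, hx⟩ := ha
  obtain ⟨y, hy⟩ := hb
  obtain ⟨k, hk⟩ := exists_mv (Δ := Δ) hfa hx
  obtain ⟨l, hl⟩ := exists_mv (Δ := Δ) hfb hy
  have hkl : k ≠ l := by
    rintro rfl
    exact not_mv_both S hD k ⟨hk, hl⟩
  rcases hI k with rfl | rfl
  · rcases hI l with rfl | rfl
    · exact hkl rfl
    · exact core k l hI hm hk hl
  · rcases hI l with rfl | rfl
    · exact core k l (fun q => (hI q).symm) (by rw [orderOf_comm', hm]) hk hl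
    · exact hkl rfl

omit S F hp in
/-- two chambers of a panel at the ends -/
theorem Ctr.self_fix {a : G} {i j : I} {m k : ℕ} {u : C} (h : Ctr Δ a i j m k u) : a • u = u :=
  h.fix u (Δ.self_mem_Pan _ _)

/-- `m ≥ 4`, `k = 1`: the central panel is the only fixed `i`-panel -/
theorem Ctr.uniq {a : G} {i j : I} {m : ℕ} {u : C} (h : Ctr Δ a i j m 1 u)
    (hm : orderOf (cs.simple j * cs.simple i) = m) {v : C} (hv : v ∈ Δ.Res {i, j} u)
    (hfix : ∀ y ∈ Δ.Pan i v, a • y = y) : v ∈ Δ.Pan i u := by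
  have hle := h.le
  have hm' : orderOf (cs.simple i * cs.simple j) = m := by rw [orderOf_comm', hm]
  have hne : i ≠ j := by
    rintro rfl
    rw [cs.simple_mul_simple_self, orderOf_one] at hm
    omega
  have ht : lt j i 1 = i := rfl
  obtain ⟨u1, hu1, hl1⟩ := h.near v hv (hfix v (Δ.self_mem_Pan i v))
  rw [ht] at hu1
  have hu1R : u1 ∈ Δ.Res {i, j} u := Δ.Pan_subset_Res (by simp) u hu1
  by_cases h1 : Δ.δ u1 v = 1
  · rw [← Δ.eq_of_δ_eq_one h1]; exact hu1
  have hmem : Δ.δ u1 v ∈ WJ cs {i, j} := Δ.δ_mem_of_mem_Res hu1R hv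
  have hlen : ℓ (Δ.δ u1 v) = 1 := by
    have : ℓ (Δ.δ u1 v) ≠ 0 := fun h => h1 (cs.length_eq_zero_iff.1 h)
    omega
  rcases exists_alt hmem with h2 | h2
  · rw [hlen, alt_one] at h2
    exact Δ.mem_Pan_trans hu1 (Δ.mem_Pan_of_δ h2)
  · exfalso
    rw [hlen, alt_one] at h2
    obtain ⟨v', hv'⟩ := exists_adj Δ v i
    have h3 : Δ.δ u1 v' = alt cs j i 2 := by
      rw [alt_succ, alt_one]
      refine Δ.δ_mul_of h2 hv' ?_
      rw [← alt_one i j, ← alt_succ, len_alt hm (by omega), alt_one, cs.length_simple, cs.length_simple]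
    have hv'R : v' ∈ Δ.Res {i, j} u := Δ.mem_Res_trans hv (Δ.Pan_subset_Res (by simp) v (Δ.mem_Pan_of_δ hv'))
    obtain ⟨u2, hu2, hl2⟩ := h.near v' hv'R (hfix v' (Δ.mem_Pan_of_δ hv'))
    rw [ht] at hu2
    have h4 : u2 ∈ Δ.Pan i u1 := by rw [Δ.Pan_eq_of_mem hu1]; exact hu2
    rcases h4 with h4 | h4
    · rw [h4, h3, len_alt hm (by omega)] at hl2
      omega
    · have h5 : Δ.δ u2 v' = alt cs i j 3 := by
        rw [alt_succ]
        refine Δ.δ_mul_of (Δ.δ_symm_simple h4) h3 ?_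
        rw [← alt_succ, len_alt hm' (by omega), cs.length_simple, len_alt hm (by omega)]
      rw [h5, len_alt hm' (by omega)] at hl2
      omega

/-- the centre of `a` in the residue of an isolated fixed chamber is moved by `b` -/
theorem iso_center (hth : Δ.Thick) {a b : G} (hab : Good p a b) (hD : Dis Δ a b ⊆ {1}) {i j : I}
    (hi : Mv Δ i a) (hj : Mv Δ j b) (hm : orderOf (cs.simple j * cs.simple i) = 4) (h : IsoJ Δ {i, j} (a * b)) :
    ∃ x u : C, a • x = x ∧ b • x = x ∧ u ∈ Δ.Res {i, j} x ∧ Ctr Δ a i j 4 1 u ∧ b • u ∉ Δ.Pan i u := by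
  have hja : ¬ Mv Δ j a := fun h' => not_mv_both S hD j ⟨h', hj⟩
  have hib : ¬ Mv Δ i b := fun h' => not_mv_both S hD i ⟨hi, h'⟩
  obtain ⟨x, hx, hxy⟩ := h
  obtain ⟨hax, hbx⟩ := fix_mul S hD hx
  obtain ⟨y, hy⟩ := exists_adj Δ x i
  have hyR : y ∈ Δ.Res {i, j} x := Δ.Pan_subset_Res (by simp) x (Δ.mem_Pan_of_δ hy)
  have hby : b • y = y := fix_of_not_mv hib hbx (Δ.mem_Pan_of_δ hy)
  have hay : a • y ≠ y := by
    intro h1
    have := hxy y hyR (by rw [mul_smul, hby, h1])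
    exact Δ.ne_of_δ_simple hy this.symm
  obtain ⟨k, u, huR, hu⟩ := exists_ctr S hth (uni_left S hth hab hD) hja hm (by omega) (by decide) hax hyR hay
  obtain ⟨kb, ub, hub⟩ := ctr_of_mv S hth (uni_right S hth hab hD) hj hib (by rw [orderOf_comm', hm]) (by omega) (by decide)
  obtain ⟨hk, -, -⟩ := two_main S hth hab hD hm (by omega) (by decide) hu hub
  obtain rfl : k = 1 := by omega
  refine ⟨x, u, hax, hbx, huR, hu, fun hbu => ?_⟩
  obtain ⟨f, hf, hbf⟩ := StF.pan (stF_right S hth hab hD) hbu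
  have hPan : Δ.Pan i f = Δ.Pan i u := Δ.Pan_eq_of_mem hf
  have h1 : ∀ y ∈ Δ.Pan i f, (a * b) • y = y := by
    intro y hy
    rw [mul_smul, fix_of_not_mv hib hbf hy]
    rw [hPan] at hy
    exact hu.fixi le_rfl y hy
  obtain ⟨y', hy'⟩ := exists_adj Δ f i
  have hfR : f ∈ Δ.Res {i, j} x := Δ.mem_Res_trans huR (Δ.Pan_subset_Res (by simp) u hf)
  have h2 := hxy f hfR (h1 f (Δ.self_mem_Pan i f))
  have h3 := hxy y' (Δ.mem_Res_trans hfR (Δ.Pan_subset_Res (by simp) f (Δ.mem_Pan_of_δ hy'))) (h1 y' (Δ.mem_Pan_of_δ hy'))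
  exact Δ.ne_of_δ_simple hy' (h2.trans h3.symm)

end Sys

end Cfsg.Agent.H148.Cls
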