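import Mathlib
import Cfsg.Agent.H148.Cls.Two

/-!
# S2451, helper148: local lemmas on buildings (commuting types, residues of type `A2`)
-/

set_option autoImplicit false
set_option linter.unusedSectionVars false

namespace Cfsg.Agent.H148.Cls

open Cfsg.Agent.Tits.Core Cfsg.Agent.Tits.Core.Bldg Cfsg.Agent.Tits.Exchange Cfsg.Agent.Tits
open Cfsg.Agent.H234.CoxB

variable {I : Type*} {M : CoxeterMatrix I} {W : Type*} [Group W] {cs : CoxeterSystem M W} {C : Type*}

local prefix:100 "ℓ" => cs.length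

theorem comm_of_M {i k : I} (h : M i k = 2) : cs.simple i * cs.simple k = cs.simple k * cs.simple i := by
  have h1 := cs.simple_mul_simple_pow i k
  rw [h, pow_two] at h1
  have h2 := mul_eq_one_iff_eq_inv.1 h1
  rwa [mul_inv_rev, cs.inv_simple, cs.inv_simple] at h2

variable [F : OppRes.Cox cs]

theorem len_two {i k : I} (hik : i ≠ k) : ℓ (cs.simple i * cs.simple k) = 2 := by
  rcases cs.length_mul_simple (cs.simple i) k with h | h
  · rw [h, cs.length_simple]
  · rw [cs.length_simple] at h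
    exfalso
    have h2 : ℓ (cs.simple i * cs.simple k) = 0 := by omega
    rw [cs.length_eq_zero_iff, mul_eq_one_iff_eq_inv, cs.inv_simple] at h2
    exact hik (F.inj h2)

variable {Δ : Bldg cs C}

/-- commuting squares -/
theorem sq {i k : I} (h : cs.simple i * cs.simple k = cs.simple k * cs.simple i) (hik : i ≠ k) {x y x' : C}
    (hy : y ∈ Δ.Pan i x) (hx' : x' ∈ Δ.Pan k x) : ∃ y' ∈ Δ.Pan k y, y' ∈ Δ.Pan i x' := by
  rcases hy with rfl | hy
  · exact ⟨x', hx', Δ.self_mem_Pan i x'⟩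
  rcases hx' with rfl | hx'
  · exact ⟨y, Δ.self_mem_Pan k y, Δ.mem_Pan_of_δ hy⟩
  have h1 : Δ.δ y x' = cs.simple i * cs.simple k := Δ.δ_mul_of (Δ.δ_symm_simple hy) hx' (by
    rw [len_two hik, cs.length_simple, cs.length_simple])
  rw [h] at h1
  obtain ⟨y', h2, h3⟩ := Δ.exists_between h1 (by rw [len_two (Ne.symm hik), cs.length_simple, cs.length_simple])
  exact ⟨y', Δ.mem_Pan_of_δ h2, Δ.mem_Pan_symm (Δ.mem_Pan_of_δ h3)⟩

theorem sqRes {i : I} {K : Set I} (hK : ∀ k ∈ K, cs.simple i * cs.simple k = cs.simple k * cs.simple i ∧ i ≠ k)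
    {x y x' : C} (hy : y ∈ Δ.Pan i x) (hx' : x' ∈ Δ.Res K x) : ∃ y' ∈ Δ.Res K y, y' ∈ Δ.Pan i x' := by
  refine Δ.Res_induction (p := fun x' => ∃ y' ∈ Δ.Res K y, y' ∈ Δ.Pan i x') ⟨y, Δ.self_mem_Res K y, hy⟩ ?_ hx'
  rintro u - v k hk huv ⟨y', hy', hy''⟩
  obtain ⟨y2, h1, h2⟩ := sq (hK k hk).1 (hK k hk).2 hy'' (Δ.mem_Pan_of_δ huv)
  exact ⟨y2, Δ.mem_Res_trans hy' (Δ.Pan_subset_Res hk _ h1), h2⟩

section A2

variable {k l : I} (hm : orderOf (cs.simple k * cs.simple l) = 3)

include hm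

theorem wa {n : ℕ} (h : n ≤ 3) : ℓ (alt cs k l n) = n := len_alt hm h

theorem wb {n : ℕ} (h : n ≤ 3) : ℓ (alt cs l k n) = n := len_alt (by rw [orderOf_comm', hm]) h

theorem w3 : alt cs k l 3 = alt cs l k 3 := by
  have h1 := wJ_pair (cs := cs) hm (by decide)
  have h2 := wJ_pair (cs := cs) (k := l) (j := k) (by rw [orderOf_comm', hm]) (by decide : (3 : ℕ) ≠ 0)
  rw [← h1, ← h2, Set.pair_comm]

theorem ne_kl : k ≠ l := by
  rintro rfl
  rw [cs.simple_mul_simple_self, orderOf_one] at hm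
  omega

/-- two `l`-panels of a residue of type `A2` are joined by a `k`-panel -/
theorem a2join {x y : C} (h : y ∈ Δ.Res {k, l} x) : ∃ x1 ∈ Δ.Pan l x, ∃ y1 ∈ Δ.Pan l y, y1 ∈ Δ.Pan k x1 := by
  -- words starting with `l`
  have key : ∀ n, n ≤ 3 → Δ.δ x y = alt cs l k n → ∃ x1 ∈ Δ.Pan l x, ∃ y1 ∈ Δ.Pan l y, y1 ∈ Δ.Pan k x1 := by
    intro n hn h1
    interval_cases n
    · rw [alt_zero] at h1
      have := Δ.eq_of_δ_eq_one h1
      subst this
      exact ⟨x, Δ.self_mem_Pan l x, x, Δ.self_mem_Pan l x, Δ.self_mem_Pan k x⟩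
    · rw [alt_one] at h1
      exact ⟨y, Δ.mem_Pan_of_δ h1, y, Δ.self_mem_Pan l y, Δ.self_mem_Pan k y⟩
    · rw [alt_succ, alt_one] at h1
      obtain ⟨x1, h2, h3⟩ := Δ.exists_between h1 (by
        rw [len_two (ne_kl hm).symm, cs.length_simple, cs.length_simple])
      exact ⟨x1, Δ.mem_Pan_of_δ h2, y, Δ.self_mem_Pan l y, Δ.mem_Pan_of_δ h3⟩
    · obtain ⟨x1, h2, h3⟩ := Δ.exists_between (h1.trans (alt_succ l k 2)) (by
        rw [← alt_succ, wb hm le_rfl, cs.length_simple, wa hm (by omega)])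
      rw [alt_succ, alt_one] at h3
      obtain ⟨y1, h4, h5⟩ := Δ.exists_between h3 (by
        rw [len_two (ne_kl hm), cs.length_simple, cs.length_simple])
      exact ⟨x1, Δ.mem_Pan_of_δ h2, y1, Δ.mem_Pan_symm (Δ.mem_Pan_of_δ h5), Δ.mem_Pan_of_δ h4⟩
  have hle : ℓ (Δ.δ x y) ≤ 3 := len_le hm (by decide) h
  rcases exists_alt h with h1 | h1
  · generalize ℓ (Δ.δ x y) = n at h1 hle
    interval_cases n
    · exact key 0 (by omega) (by rw [h1, alt_zero, alt_zero])
    · rw [alt_one] at h1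
      exact ⟨x, Δ.self_mem_Pan l x, y, Δ.self_mem_Pan l y, Δ.mem_Pan_of_δ h1⟩
    · rw [alt_succ, alt_one] at h1
      obtain ⟨y1, h2, h3⟩ := Δ.exists_between h1 (by
        rw [len_two (ne_kl hm), cs.length_simple, cs.length_simple])
      exact ⟨x, Δ.self_mem_Pan l x, y1, Δ.mem_Pan_symm (Δ.mem_Pan_of_δ h3), Δ.mem_Pan_of_δ h2⟩
    · exact key 3 le_rfl (by rw [h1, w3 hm])
  · exact key _ hle h1

/-- In a residue of type `A2` : a property `V` of `l`-panels such that each `k`-panel has one or all chambers with `V`. -/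
theorem la2 {x : C} (V : C → Prop) (hV : ∀ y ∈ Δ.Res {k, l} x, V y → ∀ z ∈ Δ.Pan l y, V z)
    (hex : ∀ y ∈ Δ.Res {k, l} x, ∃ z ∈ Δ.Pan k y, V z)
    (htwo : ∀ y ∈ Δ.Res {k, l} x, ∀ z ∈ Δ.Pan k y, ∀ z' ∈ Δ.Pan k y, z ≠ z' → V z → V z' → ∀ z'' ∈ Δ.Pan k y, V z'') :
    (V x → ∃ x' ∈ Δ.Pan l x, ∀ z ∈ Δ.Pan k x', V z) ∧
    ∀ x' ∈ Δ.Pan l x, ∀ x'' ∈ Δ.Pan l x, x' ≠ x'' → (∀ z ∈ Δ.Pan k x', V z) → (∀ z ∈ Δ.Pan k x'', V z) →
      ∀ y ∈ Δ.Res {k, l} x, V y := by
  have hpk : ∀ y ∈ Δ.Res {k, l} x, ∀ z ∈ Δ.Pan k y, z ∈ Δ.Res {k, l} x := fun y hy z hz =>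
    Δ.mem_Res_trans hy (Δ.Pan_subset_Res (by simp) y hz)
  have hpl : ∀ y ∈ Δ.Res {k, l} x, ∀ z ∈ Δ.Pan l y, z ∈ Δ.Res {k, l} x := fun y hy z hz =>
    Δ.mem_Res_trans hy (Δ.Pan_subset_Res (by simp) y hz)
  have hxx := Δ.self_mem_Res {k, l} x
  constructor
  · intro hVx
    obtain ⟨y0, hy0⟩ := Δ.exists_δ x (alt cs k l 2)
    have hy0R : y0 ∈ Δ.Res {k, l} x := by rw [mem_Res, hy0]; exact alt_mem k l 2
    obtain ⟨z, hz, hVz⟩ := hex y0 hy0R
    have hzR := hpk y0 hy0R z hz
    have hlz : 2 ≤ ℓ (Δ.δ x z) := by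
      rcases hz with rfl | hz
      · rw [hy0, wa hm (by omega)]
      · have h1 : Δ.δ x z = alt cs k l 3 := by
          have h2 := Δ.δ_mul_of hy0 hz (by
            have h3 := alt_succ' (cs := cs) k l 2
            rw [lt_even k l (by decide)] at h3
            rw [← h3, wa hm le_rfl, wa hm (by omega), cs.length_simple])
          rw [h2]
          have h3 := alt_succ' (cs := cs) k l 2
          rw [lt_even k l (by decide)] at h3
          exact h3.symm
        rw [h1, wa hm le_rfl]; omega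
    obtain ⟨x1, hx1, z1, hz1, h1⟩ := a2join hm hzR
    refine ⟨x1, hx1, ?_⟩
    have hx1R := hpl x hxx x1 hx1
    refine htwo x1 hx1R x1 (Δ.self_mem_Pan k x1) z1 h1 ?_ (hV x hxx hVx x1 hx1) (hV z hzR hVz z1 hz1)
    rintro rfl
    have h2 : z ∈ Δ.Pan l x := Δ.mem_Pan_trans hx1 (Δ.mem_Pan_symm hz1)
    rcases h2 with rfl | h2
    · rw [Δ.δ_self, cs.length_one] at hlz; omega
    · rw [h2, cs.length_simple] at hlz; omega
  · intro x' hx' x'' hx'' hne hV' hV'' y hy
    have hx'R := hpl x hxx x' hx'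
    have hx''R := hpl x hxx x'' hx''
    by_cases hyx : y ∈ Δ.Pan l x
    · have h1 : y ∈ Δ.Pan l x' := by rw [Δ.Pan_eq_of_mem hx']; exact hyx
      exact hV x' hx'R (hV' x' (Δ.self_mem_Pan k x')) y h1
    -- the chamber `y*` of the `l`-panel of `y`
    obtain ⟨q, hq⟩ := Δ.exists_isProj {l} y x
    have hqp : q ∈ Δ.Pan l y := by rw [Pan_eq_Res]; exact hq.mem
    have hqR := hpl y hy q hqp
    obtain ⟨ys, hys⟩ := exists_adj Δ q l
    have hysR := hpl q hqR ys (Δ.mem_Pan_of_δ hys)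
    have hmin := (isMinR_iff cs).1 hq.isMinR l rfl
    have hqx : Δ.δ x q ≠ 1 := by
      intro h1
      rw [← Δ.eq_of_δ_eq_one h1] at hqp
      exact hyx (Δ.mem_Pan_symm hqp)
    -- `δ x q = alt .. ` with last letter `k`
    have hxys : Δ.δ x ys = alt cs k l 2 ∨ Δ.δ x ys = alt cs l k 3 := by
      have h1 : Δ.δ x ys = Δ.δ x q * cs.simple l := Δ.step_lt x q ys l hys hmin
      rw [h1]
      have hle : ℓ (Δ.δ x ys) ≤ 3 := len_le hm (by decide) hysR
      have h2 := cs.length_mul_simple (Δ.δ x q) l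
      rw [h1] at hle
      have h3 : ℓ (Δ.δ x q) ≠ 0 := fun h => hqx (cs.length_eq_zero_iff.1 h)
      have h4 := exists_alt hqR
      obtain ⟨n, hn⟩ : ∃ n, ℓ (Δ.δ x q) = n := ⟨_, rfl⟩
      rw [hn] at h4 h3 h2 hmin
      have hn2 : n ≤ 2 := by omega
      interval_cases n
      · exact absurd rfl h3
      · rcases h4 with h4 | h4
        · left; rw [h4, alt_one, alt_succ, alt_one]
        · exfalso
          rw [h4, alt_one, cs.simple_mul_simple_self, cs.length_one] at hmin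
          omega
      · rcases h4 with h4 | h4
        · exfalso
          rw [h4, alt_succ, alt_one, mul_assoc, cs.simple_mul_simple_self, mul_one, cs.length_simple] at hmin
          omega
        · right
          rw [h4, alt_succ' l k 2, lt_even l k (by decide)]
    -- the `k`-panel of `y*` does not meet the `l`-panel of `x`
    have hfar : ∀ b ∈ Δ.Pan k ys, 2 ≤ ℓ (Δ.δ x b) := by
      intro b hb
      rcases hb with rfl | hb
      · rcases hxys with h1 | h1
        · rw [h1, wa hm (by omega)]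
        · rw [h1, wb hm le_rfl]; omega
      · have h5 := Δ.step x ys b k hb
        rcases hxys with h1 | h1
        · rcases h5 with h5 | h5
          · have h3 := alt_succ' (cs := cs) k l 2
            rw [lt_even k l (by decide)] at h3
            rw [h5, h1, ← h3, wa hm le_rfl]; omega
          · rw [h5, h1, wa hm (by omega)]
        · rcases h5 with h5 | h5
          · rw [h5]
            have h6 := cs.length_mul_simple (Δ.δ x ys) k
            rw [h1, wb hm le_rfl] at h6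
            rw [h1]
            omega
          · rw [h5, h1, wb hm le_rfl]; omega
    have hmeet : ∀ u ∈ Δ.Pan l x, (∀ z ∈ Δ.Pan k u, V z) → ∃ a ∈ Δ.Pan k u, ∃ b ∈ Δ.Pan k ys, b ∈ Δ.Pan l a ∧ V b := by
      intro u hu hVu
      have huR := hpl x hxx u hu
      have h1 : ys ∈ Δ.Res {l, k} u := by
        rw [Set.pair_comm]; exact Δ.mem_Res_trans (Δ.mem_Res_symm huR) hysR
      obtain ⟨a, ha, b, hb, hab⟩ := a2join (k := l) (l := k) (by rw [orderOf_comm', hm]) h1
      exact ⟨a, ha, b, hb, hab, hV a (hpk u huR a ha) (hVu a ha) b hab⟩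
    obtain ⟨a, ha, b, hb, hab, hVb⟩ := hmeet x' hx' hV'
    obtain ⟨a', ha', b', hb', hab', hVb'⟩ := hmeet x'' hx'' hV''
    have hxx' : Δ.δ x' x'' = cs.simple l := by
      have h1 : x'' ∈ Δ.Pan l x' := by rw [Δ.Pan_eq_of_mem hx']; exact hx''
      exact Δ.δ_eq_of_mem_Pan (Δ.self_mem_Pan l x') h1 hne
    have hbb : b ≠ b' := by
      rintro rfl
      have haa : a' ∈ Δ.Pan l a := Δ.mem_Pan_trans hab (Δ.mem_Pan_symm hab')
      -- the gallery `x', a, a', x''`
      by_cases h1 : a = x'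
      · subst h1
        have h2 : b ∈ Δ.Pan l x := Δ.mem_Pan_trans hx' hab
        have h3 := hfar b hb
        rcases h2 with rfl | h2
        · rw [Δ.δ_self, cs.length_one] at h3; omega
        · rw [h2, cs.length_simple] at h3; omega
      · by_cases h1' : a' = x''
        · subst h1'
          have h2 : b ∈ Δ.Pan l x := Δ.mem_Pan_trans hx'' hab'
          have h3 := hfar b hb
          rcases h2 with rfl | h2
          · rw [Δ.δ_self, cs.length_one] at h3; omega
          · rw [h2, cs.length_simple] at h3; omega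
        · have e1 : Δ.δ x' a = cs.simple k := Δ.δ_eq_of_mem_Pan (Δ.self_mem_Pan k x') ha (Ne.symm h1)
          have e3 : Δ.δ a' x'' = cs.simple k := Δ.δ_symm_simple
            (Δ.δ_eq_of_mem_Pan (Δ.self_mem_Pan k x'') ha' (Ne.symm h1'))
          rcases haa with rfl | e2
          · -- `x', x''` in one `k`-panel
            have h2 : x'' ∈ Δ.Pan k x' := Δ.mem_Pan_trans (Δ.mem_Pan_of_δ e1) (Δ.mem_Pan_of_δ e3)
            rcases h2 with h2 | h2
            · exact hne h2.symm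
            · rw [hxx'] at h2
              exact ne_kl hm (F.inj h2.symm)
          · have e12 : Δ.δ x' a' = alt cs k l 2 := by
              rw [alt_succ, alt_one]
              exact Δ.δ_mul_of e1 e2 (by rw [len_two (ne_kl hm), cs.length_simple, cs.length_simple])
            have h3 := alt_succ' (cs := cs) k l 2
            rw [lt_even k l (by decide)] at h3
            have e123 : Δ.δ x' x'' = alt cs k l 3 := by
              rw [h3]
              exact Δ.δ_mul_of e12 e3 (by rw [← h3, wa hm le_rfl, wa hm (by omega), cs.length_simple])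
            have h4 := congrArg cs.length (hxx'.symm.trans e123)
            rw [wa hm le_rfl, cs.length_simple] at h4
            omega
    have hVys : V ys := htwo ys hysR b hb b' hb' hbb hVb hVb' ys (Δ.self_mem_Pan k ys)
    have h1 : y ∈ Δ.Pan l ys := by
      have h2 : ys ∈ Δ.Pan l y := Δ.mem_Pan_trans hqp (Δ.mem_Pan_of_δ hys)
      exact Δ.mem_Pan_symm h2
    exact hV ys hysR hVys y h1

end A2

end Cfsg.Agent.H148.Cls
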