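import Mathlib
import Cfsg.Agent.H148.Cls.Full
import Cfsg.Agent.H148.Cls.Loc

/-!
# S2451, helper148: type `B_n`, `C_n` (`n ≥ 3`), `Dis Δ a b ⊆ {1}`

`Lin M n lab nd` : the nodes are labelled `0, …, n - 1`, the bond `n - 2, n - 1` is double.  The element `a` moves the
type `n - 1` only.  `TT k x` : `a` is trivial on the residue of `x` with the types of label `≥ k`.
-/

set_option autoImplicit false
set_option linter.unusedSectionVars false

open scoped Pointwise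

namespace Cfsg.Agent.H148.Cls

open Cfsg.Agent.Tits.Core Cfsg.Agent.Tits.Core.Bldg Cfsg.Agent.Tits.Exchange Cfsg.Agent.Tits Cfsg.Agent.FixBN
open Cfsg.Agent.H197.Cls Cfsg.Agent.H234.CoxB Cfsg.Agent.H330.ClassProd

variable {I : Type*} {M : CoxeterMatrix I} {W : Type*} [Group W] {cs : CoxeterSystem M W} {C : Type*}

local prefix:100 "ℓ" => cs.length

/-- a linear diagram with nodes `0, …, n - 1` and a double bond at the end -/
structure Lin (M : CoxeterMatrix I) (n : ℕ) (lab : I → ℕ) (nd : ℕ → I) : Prop where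
  lab_lt : ∀ i, lab i < n
  nd_lab : ∀ i, nd (lab i) = i
  lab_nd : ∀ k < n, lab (nd k) = k
  m3 : ∀ k, k + 2 < n → M (nd k) (nd (k + 1)) = 3
  m4 : ∀ k, k + 2 = n → M (nd k) (nd (k + 1)) = 4
  m2 : ∀ k l, k + 1 < l → l < n → M (nd k) (nd l) = 2

variable {Δ : Bldg cs C} {G : Type*} [Group G] [MulAction G C] {p : ℕ} {n : ℕ} {lab : I → ℕ} {nd : ℕ → I}

/-- `a` is trivial on the residue of `x` of the types with label `≥ k` -/
def TT (Δ : Bldg cs C) (lab : I → ℕ) (a : G) (k : ℕ) (x : C) : Prop := ∀ y ∈ Δ.Res {i | k ≤ lab i} x, a • y = y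

theorem TT.res {a : G} {k : ℕ} {x y : C} (h : TT Δ lab a k x) (hy : y ∈ Δ.Res {i | k ≤ lab i} x) : TT Δ lab a k y := by
  intro z hz
  exact h z (Δ.mem_Res_trans hy hz)

theorem TT.mono {a : G} {k k' : ℕ} (hk : k ≤ k') {x : C} (h : TT Δ lab a k x) : TT Δ lab a k' x := by
  intro z hz
  exact h z (Δ.Res_mono (fun i (hi : k' ≤ lab i) => hk.trans hi) x hz)

theorem TT.self {a : G} {k : ℕ} {x : C} (h : TT Δ lab a k x) : a • x = x := h x (Δ.self_mem_Res _ _)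

section Lab

variable (hL : Lin M n lab nd) [F : OppRes.Cox cs]

include hL

omit F in
theorem Lin.comm (cs : CoxeterSystem M W) {i k : I} (h : lab i + 1 < lab k) :
    cs.simple i * cs.simple k = cs.simple k * cs.simple i ∧ i ≠ k := by
  refine ⟨comm_of_M ?_, ?_⟩
  · rw [← hL.nd_lab i, ← hL.nd_lab k]
    exact hL.m2 _ _ h (hL.lab_lt k)
  · rintro rfl
    omega

omit F in
theorem Lin.comm' (cs : CoxeterSystem M W) {i k : I} (h : lab k + 1 < lab i) :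
    cs.simple i * cs.simple k = cs.simple k * cs.simple i ∧ i ≠ k :=
  ⟨(hL.comm cs h).1.symm, (hL.comm cs h).2.symm⟩

theorem TT.inv {a : G} (hcl : ∀ i, lab i + 1 < n → ¬ Mv Δ i a) {k : ℕ} (hk : k ≤ n) {i : I} (hi : lab i + 1 < k) {x y : C}
    (h : TT Δ lab a k x) (hy : y ∈ Δ.Pan i x) : TT Δ lab a k y := by
  intro z hz
  obtain ⟨z', hz', hz''⟩ := sqRes (Δ := Δ) (i := i) (K := {i | k ≤ lab i}) (x := y) (y := x) (x' := z)
    (fun l (hl : k ≤ lab l) => hL.comm cs (by omega)) (Δ.mem_Pan_symm hy) hz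
  exact fix_of_not_mv (hcl i (by omega)) (h z' hz') (Δ.mem_Pan_symm hz'')

omit F in
theorem Lin.set_n : {i : I | n ≤ lab i} = ∅ := by
  ext i
  simp only [Set.mem_setOf_eq, Set.mem_empty_iff_false, iff_false, not_le]
  exact hL.lab_lt i

omit F in
theorem Lin.set_last (hn : 1 ≤ n) : {i : I | n - 1 ≤ lab i} = {nd (n - 1)} := by
  ext i
  simp only [Set.mem_setOf_eq, Set.mem_singleton_iff]
  constructor
  · intro h
    have h1 : lab i = n - 1 := by have := hL.lab_lt i; omega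
    rw [← h1, hL.nd_lab]
  · rintro rfl
    rw [hL.lab_nd _ (by omega)]

omit F in
theorem Lin.set_last2 (hn : 2 ≤ n) : {i : I | n - 2 ≤ lab i} = {nd (n - 1), nd (n - 2)} := by
  ext i
  simp only [Set.mem_setOf_eq, Set.mem_insert_iff, Set.mem_singleton_iff]
  constructor
  · intro h
    have h0 := hL.lab_lt i
    by_cases h1 : lab i = n - 1
    · left; rw [← h1, hL.nd_lab]
    · right
      have h2 : lab i = n - 2 := by omega
      rw [← h2, hL.nd_lab]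
  · rintro (rfl | rfl)
    · rw [hL.lab_nd _ (by omega)]; omega
    · rw [hL.lab_nd _ (by omega)]

omit F in
theorem Lin.tt_n {a : G} {x : C} : TT Δ lab a n x ↔ a • x = x := by
  rw [TT, hL.set_n, Res_empty]
  simp

omit F in
theorem Lin.tt_last (hn : 1 ≤ n) {a : G} {x : C} : TT Δ lab a (n - 1) x ↔ ∀ y ∈ Δ.Pan (nd (n - 1)) x, a • y = y := by
  rw [TT, hL.set_last hn, ← Pan_eq_Res]

/-- the step -/
def Down (Δ : Bldg cs C) (lab : I → ℕ) (nd : ℕ → I) (a : G) (k : ℕ) : Prop :=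
  ∀ x, TT Δ lab a (k + 2) x → (∃ x' ∈ Δ.Pan (nd k) x, TT Δ lab a (k + 1) x') ∧
    ∀ x' ∈ Δ.Pan (nd k) x, ∀ x'' ∈ Δ.Pan (nd k) x, x' ≠ x'' → TT Δ lab a (k + 1) x' → TT Δ lab a (k + 1) x'' →
      TT Δ lab a k x

theorem down_step {a : G} (hcl : ∀ i, lab i + 1 < n → ¬ Mv Δ i a) {k : ℕ} (hk : k + 2 < n)
    (hm : orderOf (cs.simple (nd (k + 1)) * cs.simple (nd k)) = 3) (h : Down Δ lab nd a (k + 1)) : Down Δ lab nd a k := by
  -- the main statement, at each chamber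
  have hl0 : lab (nd k) = k := hL.lab_nd k (by omega)
  have hl1 : lab (nd (k + 1)) = k + 1 := hL.lab_nd (k + 1) (by omega)
  have hinvk : ∀ y z : C, TT Δ lab a (k + 2) y → z ∈ Δ.Pan (nd k) y → TT Δ lab a (k + 2) z := fun y z hy hz =>
    TT.inv hL hcl (by omega) (by rw [hl0]; omega) hy hz
  have hinv3 : ∀ x, TT Δ lab a (k + 3) x → ∀ y ∈ Δ.Res {nd (k + 1), nd k} x, TT Δ lab a (k + 3) y := by
    intro x hx y hy
    refine Δ.Res_induction (p := fun y => TT Δ lab a (k + 3) y) hx ?_ hy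
    rintro u - v i (rfl | hi) huv hu
    · exact TT.inv hL hcl (by omega) (by rw [hl1]; omega) hu (Δ.mem_Pan_of_δ huv)
    · rw [Set.mem_singleton_iff] at hi
      subst hi
      exact TT.inv hL hcl (by omega) (by rw [hl0]; omega) hu (Δ.mem_Pan_of_δ huv)
  have key : ∀ x, TT Δ lab a (k + 2) x → (∃ x' ∈ Δ.Pan (nd k) x, TT Δ lab a (k + 1) x') ∧
      ∀ x' ∈ Δ.Pan (nd k) x, ∀ x'' ∈ Δ.Pan (nd k) x, x' ≠ x'' → TT Δ lab a (k + 1) x' → TT Δ lab a (k + 1) x'' →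
        ∀ y ∈ Δ.Res {nd (k + 1), nd k} x, TT Δ lab a (k + 1) y := by
    intro x hx
    have h3 := hinv3 x (hx.mono (by omega))
    have hup : ∀ y, TT Δ lab a (k + 1) y → ∀ z ∈ Δ.Pan (nd (k + 1)) y, TT Δ lab a (k + 1) z := fun y hy z hz =>
      hy.res (Δ.Pan_subset_Res (show k + 1 ≤ lab (nd (k + 1)) by rw [hl1]) y hz)
    have htwo : ∀ y ∈ Δ.Res {nd (k + 1), nd k} x, ∀ z ∈ Δ.Pan (nd (k + 1)) y, ∀ z' ∈ Δ.Pan (nd (k + 1)) y, z ≠ z' →
        TT Δ lab a (k + 2) z → TT Δ lab a (k + 2) z' → TT Δ lab a (k + 1) y := fun y hy z hz z' hz' hne h1 h2 =>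
      (h y (h3 y hy)).2 z hz z' hz' hne h1 h2
    obtain ⟨h4, h5⟩ := la2 hm (Δ := Δ) (x := x) (fun y => TT Δ lab a (k + 2) y)
      (fun y _ hy z hz => hinvk y z hy hz)
      (fun y hy => (h y (h3 y hy)).1)
      (fun y hy z hz z' hz' hne h1 h2 z'' hz'' =>
        (hup y (htwo y hy z hz z' hz' hne h1 h2) z'' hz'').mono (by omega))
    -- all of a panel
    have hall : ∀ y ∈ Δ.Res {nd (k + 1), nd k} x, (∀ z ∈ Δ.Pan (nd (k + 1)) y, TT Δ lab a (k + 2) z) →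
        TT Δ lab a (k + 1) y := by
      intro y hy hz
      obtain ⟨z, hz'⟩ := exists_adj Δ y (nd (k + 1))
      exact htwo y hy y (Δ.self_mem_Pan _ y) z (Δ.mem_Pan_of_δ hz') (Δ.ne_of_δ_simple hz') (hz y (Δ.self_mem_Pan _ y))
        (hz z (Δ.mem_Pan_of_δ hz'))
    constructor
    · obtain ⟨x', hx', hz⟩ := h4 hx
      exact ⟨x', hx', hall x' (Δ.Pan_subset_Res (by simp) x hx') hz⟩
    · intro x' hx' x'' hx'' hne h1 h2 y hy
      have h6 := h5 x' hx' x'' hx'' hne (fun z hz => (hup x' h1 z hz).mono (by omega))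
        (fun z hz => (hup x'' h2 z hz).mono (by omega))
      exact hall y hy fun z hz => h6 z (Δ.mem_Res_trans hy (Δ.Pan_subset_Res (by simp) y hz))
  intro x hx
  refine ⟨(key x hx).1, ?_⟩
  intro x' hx' x'' hx'' hne h1 h2
  have h3 := (key x hx).2 x' hx' x'' hx'' hne h1 h2
  -- closure
  have hG : ∀ y ∈ Δ.Res {i | k ≤ lab i} x, ∀ z ∈ Δ.Pan (nd k) y, TT Δ lab a (k + 1) z := by
    intro y hy
    refine Δ.Res_induction (p := fun y => ∀ z ∈ Δ.Pan (nd k) y, TT Δ lab a (k + 1) z)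
      (fun z hz => h3 z (Δ.Pan_subset_Res (by simp) x hz)) ?_ hy
    intro u _ v i hi huv hu z hz
    have hi' : k ≤ lab i := hi
    by_cases hik : lab i = k
    · have h4 : i = nd k := by rw [← hik, hL.nd_lab]
      subst h4
      exact hu z (Δ.mem_Pan_trans (Δ.mem_Pan_of_δ huv) hz)
    · by_cases hik1 : lab i = k + 1
      · have h4 : i = nd (k + 1) := by rw [← hik1, hL.nd_lab]
        subst h4
        obtain ⟨u', hu'⟩ := exists_adj Δ u (nd k)
        have h5 := hu u (Δ.self_mem_Pan _ u)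
        refine (key u (h5.mono (by omega))).2 u (Δ.self_mem_Pan _ u) u' (Δ.mem_Pan_of_δ hu') (Δ.ne_of_δ_simple hu')
          h5 (hu u' (Δ.mem_Pan_of_δ hu')) z ?_
        exact Δ.mem_Res_trans (Δ.Pan_subset_Res (by simp) u (Δ.mem_Pan_of_δ huv)) (Δ.Pan_subset_Res (by simp) v hz)
      · obtain ⟨z', hz', hz''⟩ := sq (Δ := Δ) (i := i) (k := nd k) (hL.comm' cs (by rw [hl0]; omega)).1
          (hL.comm' cs (by rw [hl0]; omega)).2 (x := v) (y := u) (x' := z) (Δ.mem_Pan_symm (Δ.mem_Pan_of_δ huv)) hz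
        exact (hu z' hz').res (Δ.Pan_subset_Res (show k + 1 ≤ lab i by omega) z' (Δ.mem_Pan_symm hz''))
  intro y hy
  exact (hG y hy y (Δ.self_mem_Pan _ y)).self

theorem down_all {a : G} (hcl : ∀ i, lab i + 1 < n → ¬ Mv Δ i a)
    (hm : ∀ k, k + 2 < n → orderOf (cs.simple (nd (k + 1)) * cs.simple (nd k)) = 3) (hn : 2 ≤ n)
    (h0 : Down Δ lab nd a (n - 2)) : ∀ k, k + 2 ≤ n → Down Δ lab nd a k := by
  have key : ∀ d, d + 2 ≤ n → Down Δ lab nd a (n - 2 - d) := by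
    intro d
    induction d with
    | zero => intro _; exact h0
    | succ d ih =>
      intro hd
      have h1 := ih (by omega)
      have e : n - 2 - d = (n - 2 - (d + 1)) + 1 := by omega
      rw [e] at h1
      exact down_step hL hcl (by omega) (hm _ (by omega)) h1
  intro k hk
  have := key (n - 2 - k) (by omega)
  rwa [show n - 2 - (n - 2 - k) = k by omega] at this

omit F in
theorem climb {a : G} (hdown : ∀ k, k + 2 ≤ n → Down Δ lab nd a k) :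
    ∀ l, l + 2 ≤ n → ∀ x, TT Δ lab a (l + 2) x → ∃ x' ∈ Δ.Res {i | lab i ≤ l} x, TT Δ lab a 1 x' := by
  intro l
  induction l with
  | zero =>
    intro hl x hx
    obtain ⟨x', hx', h⟩ := (hdown 0 hl x hx).1
    exact ⟨x', Δ.Pan_subset_Res (show lab (nd 0) ≤ 0 by rw [hL.lab_nd 0 (by omega)]) x hx', h⟩
  | succ l ih =>
    intro hl x hx
    obtain ⟨x1, hx1, h⟩ := (hdown (l + 1) hl x hx).1
    obtain ⟨x', hx', h'⟩ := ih (by omega) x1 h
    refine ⟨x', Δ.mem_Res_trans (Δ.Pan_subset_Res (show lab (nd (l + 1)) ≤ l + 1 by rw [hL.lab_nd _ (by omega)]) x hx1)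
      (Δ.Res_mono (fun i (hi : lab i ≤ l) => show lab i ≤ l + 1 by omega) x1 hx'), h'⟩

/-- the double cosets in type `A` -/
theorem dcos (hm : ∀ k, k + 2 < n → orderOf (cs.simple (nd (k + 1)) * cs.simple (nd k)) = 3) (hn : 2 ≤ n) :
    ∀ k, k + 2 ≤ n → ∀ x y : C, y ∈ Δ.Res {i | k ≤ lab i ∧ lab i + 2 ≤ n} x →
      ∃ x1 ∈ Δ.Res {i | k + 1 ≤ lab i ∧ lab i + 2 ≤ n} x, ∃ y1 ∈ Δ.Res {i | k + 1 ≤ lab i ∧ lab i + 2 ≤ n} y,
        y1 ∈ Δ.Pan (nd k) x1 := by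
  have key : ∀ d, d + 2 ≤ n → ∀ x y : C, y ∈ Δ.Res {i | n - 2 - d ≤ lab i ∧ lab i + 2 ≤ n} x →
      ∃ x1 ∈ Δ.Res {i | n - 2 - d + 1 ≤ lab i ∧ lab i + 2 ≤ n} x,
        ∃ y1 ∈ Δ.Res {i | n - 2 - d + 1 ≤ lab i ∧ lab i + 2 ≤ n} y, y1 ∈ Δ.Pan (nd (n - 2 - d)) x1 := by
    intro d
    induction d with
    | zero =>
      intro _ x y hy
      refine ⟨x, Δ.self_mem_Res _ _, y, Δ.self_mem_Res _ _, ?_⟩
      rw [Pan_eq_Res]
      refine Δ.Res_mono ?_ x hy
      rintro i ⟨h1, h2⟩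
      rw [Set.mem_singleton_iff]
      have : lab i = n - 2 - 0 := by omega
      rw [← this, hL.nd_lab]
    | succ d ih =>
      intro hd x y hy
      set k := n - 2 - (d + 1) with hk
      have e : n - 2 - d = k + 1 := by omega
      have hl0 : lab (nd k) = k := hL.lab_nd k (by omega)
      have hl1 : lab (nd (k + 1)) = k + 1 := hL.lab_nd (k + 1) (by omega)
      have ih' := ih (by omega)
      rw [e] at ih'
      refine Δ.Res_induction (p := fun y => ∃ x1 ∈ Δ.Res {i | k + 1 ≤ lab i ∧ lab i + 2 ≤ n} x,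
        ∃ y1 ∈ Δ.Res {i | k + 1 ≤ lab i ∧ lab i + 2 ≤ n} y, y1 ∈ Δ.Pan (nd k) x1) ?_ ?_ hy
      · exact ⟨x, Δ.self_mem_Res _ _, x, Δ.self_mem_Res _ _, Δ.self_mem_Pan _ _⟩
      · rintro u - z i ⟨hi1, hi2⟩ huz ⟨x1, hx1, y1, hy1, hxy⟩
        by_cases hik : k + 1 ≤ lab i
        · refine ⟨x1, hx1, y1, ?_, hxy⟩
          have h1 : z ∈ Δ.Res {i | k + 1 ≤ lab i ∧ lab i + 2 ≤ n} u :=
            Δ.Pan_subset_Res (J := {i | k + 1 ≤ lab i ∧ lab i + 2 ≤ n}) ⟨hik, hi2⟩ u (Δ.mem_Pan_of_δ huz)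
          exact Δ.mem_Res_trans (Δ.mem_Res_symm h1) hy1
        · have h4 : i = nd k := by
            have : lab i = k := by omega
            rw [← this, hL.nd_lab]
          subst h4
          have hzu : z ∈ Δ.Pan (nd k) u := Δ.mem_Pan_of_δ huz
          obtain ⟨y2, hy2, y3, hy3, h23⟩ := ih' y1 u (Δ.mem_Res_symm hy1)
          have hcomm : ∀ l ∈ {i | k + 1 + 1 ≤ lab i ∧ lab i + 2 ≤ n},
              cs.simple (nd k) * cs.simple l = cs.simple l * cs.simple (nd k) ∧ nd k ≠ l := fun l hl =>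
            hL.comm cs (by rw [hl0]; have := hl.1; omega)
          obtain ⟨x2, hx2, hx2'⟩ := sqRes (Δ := Δ) hcomm (Δ.mem_Pan_symm hxy) hy2
          obtain ⟨z3, hz3, hz3'⟩ := sqRes (Δ := Δ) hcomm hzu hy3
          have h5 : z3 ∈ Δ.Res {nd k, nd (k + 1)} x2 := by
            refine Δ.mem_Res_trans (Δ.Pan_subset_Res (by simp) x2 (Δ.mem_Pan_symm hx2')) ?_
            refine Δ.mem_Res_trans (Δ.Pan_subset_Res (by simp) y2 h23) ?_
            exact Δ.Pan_subset_Res (by simp) y3 hz3'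
          obtain ⟨x4, hx4, z4, hz4, h6⟩ := a2join (k := nd k) (l := nd (k + 1)) (by
            rw [orderOf_comm']; exact hm k (by omega)) h5
          have hsub : ∀ w w' : C, w' ∈ Δ.Res {i | k + 1 + 1 ≤ lab i ∧ lab i + 2 ≤ n} w →
              w' ∈ Δ.Res {i | k + 1 ≤ lab i ∧ lab i + 2 ≤ n} w := fun w w' h =>
            Δ.Res_mono (J := {i | k + 1 + 1 ≤ lab i ∧ lab i + 2 ≤ n}) (K := {i | k + 1 ≤ lab i ∧ lab i + 2 ≤ n})
              (fun i hi => ⟨by have := hi.1; omega, hi.2⟩) w h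
          have hpan : ∀ w w' : C, w' ∈ Δ.Pan (nd (k + 1)) w →
              w' ∈ Δ.Res {i | k + 1 ≤ lab i ∧ lab i + 2 ≤ n} w := fun w w' h =>
            Δ.Pan_subset_Res (J := {i | k + 1 ≤ lab i ∧ lab i + 2 ≤ n})
              ⟨by rw [hl1], by rw [hl1]; omega⟩ w h
          exact ⟨x4, Δ.mem_Res_trans (Δ.mem_Res_trans hx1 (hsub _ _ hx2)) (hpan _ _ hx4),
            z4, Δ.mem_Res_trans (hsub _ _ hz3) (hpan _ _ hz4), h6⟩
  intro k hk
  have := key (n - 2 - k) (by omega)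
  rwa [show n - 2 - (n - 2 - k) = k by omega] at this

/-- the points inside a maximal subspace -/
theorem uniqA {a : G} (hm : ∀ k, k + 2 < n → orderOf (cs.simple (nd (k + 1)) * cs.simple (nd k)) = 3) (hn : 2 ≤ n)
    (hdown : ∀ k, k + 2 ≤ n → Down Δ lab nd a k) (hne : ∃ x : C, a • x ≠ x) {x x' : C} (hx : TT Δ lab a 1 x)
    (hx' : TT Δ lab a 1 x') (h : x' ∈ Δ.Res {i | lab i + 2 ≤ n} x) : x' ∈ Δ.Res {i | 1 ≤ lab i} x := by
  obtain ⟨x1, hx1, x1', hx1', h1⟩ := dcos hL hm hn 0 hn x x'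
    (Δ.Res_mono (J := {i | lab i + 2 ≤ n}) (K := {i | 0 ≤ lab i ∧ lab i + 2 ≤ n}) (fun i hi => ⟨Nat.zero_le _, hi⟩) x h)
  have hsub : ∀ w w' : C, w' ∈ Δ.Res {i | 0 + 1 ≤ lab i ∧ lab i + 2 ≤ n} w → w' ∈ Δ.Res {i | 1 ≤ lab i} w :=
    fun w w' h => Δ.Res_mono (fun i hi => hi.1) w h
  have h2 := hx.res (hsub _ _ hx1)
  have h3 := hx'.res (hsub _ _ hx1')
  by_cases he : x1 = x1'
  · subst he
    exact Δ.mem_Res_trans (hsub _ _ hx1) (Δ.mem_Res_symm (hsub _ _ hx1'))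
  · exfalso
    have h4 := (hdown 0 hn x1 (h2.mono (by omega))).2 x1 (Δ.self_mem_Pan _ _) x1' h1 he h2 h3
    obtain ⟨y, hy⟩ := hne
    refine hy (h4 y ?_)
    have : {i : I | 0 ≤ lab i} = Set.univ := by ext i; simp
    rw [this, Res_univ]; trivial

end Lab

end Cfsg.Agent.H148.Cls
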