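import Mathlib
import Cfsg.Agent.H148.Cls.CN

/-!
# S2451, helper148: type `B_n`, `C_n` (`n ≥ 3`), `Dis Δ a b ⊆ {1}`: the theorem
-/

set_option autoImplicit false
set_option linter.unusedSectionVars false

open scoped Pointwise

namespace Cfsg.Agent.H148.Cls

open Cfsg.Agent.Tits.Core Cfsg.Agent.Tits.Core.Bldg Cfsg.Agent.Tits.Exchange Cfsg.Agent.Tits Cfsg.Agent.FixBN
open Cfsg.Agent.H197.Cls Cfsg.Agent.H234.CoxB Cfsg.Agent.H330.ClassProd

variable {I : Type*} {M : CoxeterMatrix I} {W : Type*} [Group W] {cs : CoxeterSystem M W} {C : Type*}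

local prefix:100 "ℓ" => cs.length

variable {Δ : Bldg cs C} {G : Type*} [Group G] [MulAction G C] {p : ℕ} {n : ℕ} {lab : I → ℕ} {nd : ℕ → I}

theorem ordM [Finite I] [Finite W] (cs : CoxeterSystem M W) (i j : I) :
    orderOf (cs.simple i * cs.simple j) = M i j := by
  classical
  have := Fintype.ofFinite I
  exact LieRecognition.CoxForm.orderOf_eq cs i j

section Sys

variable (S : Sys Δ G p) [F : OppRes.Cox cs]

include S

/-- two `i`-panels on a `j`-panel, all chambers fixed -/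
theorem b1_two (hth : Δ.Thick) {a : G} (hu : Uni Δ a) {i j : I} (hj : ¬ Mv Δ j a)
    (hm : orderOf (cs.simple j * cs.simple i) = 4) {x x' : C} (hx' : x' ∈ Δ.Pan j x) (hne : x' ≠ x)
    (h1 : ∀ y ∈ Δ.Pan i x, a • y = y) (h2 : ∀ y ∈ Δ.Pan i x', a • y = y) : ∀ y ∈ Δ.Res {i, j} x, a • y = y := by
  have hm' : orderOf (cs.simple i * cs.simple j) = 4 := by rw [orderOf_comm', hm]
  obtain ⟨y, hy⟩ := exists_adj Δ x i
  obtain ⟨y', hy'⟩ := exists_adj Δ x' i
  obtain ⟨y0, hy0⟩ := exists_adj Δ y j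
  have e0 : Δ.δ x x' = cs.simple j := Δ.δ_eq_of_mem_Pan (Δ.self_mem_Pan j x) hx' (Ne.symm hne)
  have e1 : Δ.δ x y' = alt cs j i 2 := by
    rw [alt_succ, alt_one]
    refine Δ.δ_mul_of e0 hy' ?_
    rw [← alt_one i j, ← alt_succ, len_alt hm (by omega), alt_one, cs.length_simple, cs.length_simple]
  have e2 : Δ.δ y y' = alt cs i j 3 := by
    rw [alt_succ]
    refine Δ.δ_mul_of (Δ.δ_symm_simple hy) e1 ?_
    rw [← alt_succ, len_alt hm' (by omega), len_alt hm (by omega), cs.length_simple]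
  have e3 : Δ.δ y0 y' = alt cs j i 4 := by
    rw [alt_succ]
    refine Δ.δ_mul_of (Δ.δ_symm_simple hy0) e2 ?_
    rw [← alt_succ, len_alt hm (by omega), len_alt hm' (by omega), cs.length_simple]
  have hfy : a • y = y := h1 y (Δ.mem_Pan_of_δ hy)
  have hfy0 : a • y0 = y0 := fix_of_not_mv hj hfy (Δ.mem_Pan_of_δ hy0)
  have hw : alt cs j i 4 = wJ cs {i, j} := by rw [← wJ_pair hm (by decide), Set.pair_comm]
  have h3 := fix_opp S hth hu hfy0 (h2 y' (Δ.mem_Pan_of_δ hy')) (e3.trans hw)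
  intro z hz
  refine h3 z ?_
  have h4 : y0 ∈ Δ.Res {i, j} x := Δ.mem_Res_trans (Δ.Pan_subset_Res (by simp) x (Δ.mem_Pan_of_δ hy))
    (Δ.Pan_subset_Res (by simp) y (Δ.mem_Pan_of_δ hy0))
  rw [Δ.Res_eq_of_mem h4]; exact hz

variable [hp : Fact p.Prime]

/-- each fixed chamber has a chamber with fixed `i`-panel in its `j`-panel -/
theorem b1_ex (hth : Δ.Thick) {a b : G} (hab : Good p a b) (hD : Dis Δ a b ⊆ {1}) {i j : I}
    (hi : Mv Δ i a) (hj : Mv Δ j b) (hm : orderOf (cs.simple j * cs.simple i) = 4) {x : C} (hx : a • x = x) :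
    ∃ x' ∈ Δ.Pan j x, ∀ y ∈ Δ.Pan i x', a • y = y := by
  have hja : ¬ Mv Δ j a := fun h' => not_mv_both S hD j ⟨h', hj⟩
  have hib : ¬ Mv Δ i b := fun h' => not_mv_both S hD i ⟨hi, h'⟩
  by_cases hall : ∀ y ∈ Δ.Res {i, j} x, a • y = y
  · exact ⟨x, Δ.self_mem_Pan j x, fun y hy => hall y (Δ.Pan_subset_Res (by simp) x hy)⟩
  push Not at hall
  obtain ⟨y, hyR, hay⟩ := hall
  obtain ⟨k, u, huR, hu⟩ := exists_ctr S hth (uni_left S hth hab hD) hja hm (by omega) (by decide) hx hyR hay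
  obtain ⟨kb, ub, hub⟩ := ctr_of_mv S hth (uni_right S hth hab hD) hj hib (by rw [orderOf_comm', hm]) (by omega) (by decide)
  obtain ⟨hk, -, -⟩ := two_main S hth hab hD hm (by omega) (by decide) hu hub
  obtain rfl : k = 1 := by omega
  obtain ⟨u', hu', hl⟩ := hu.near x (Δ.mem_Res_symm huR) hx
  have ht : lt j i 1 = i := rfl
  rw [ht] at hu'
  have hfix : ∀ y ∈ Δ.Pan i u', a • y = y := fun y hy => hu.fixi le_rfl y (by rwa [Δ.Pan_eq_of_mem hu'] at hy)
  have hmem : Δ.δ u' x ∈ WJ cs {i, j} :=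
    Δ.δ_mem_of_mem_Res (x := u) (Δ.Pan_subset_Res (by simp) u hu') (Δ.mem_Res_symm huR)
  rcases exists_alt hmem with h2 | h2
  · generalize ℓ (Δ.δ u' x) = m at h2 hl
    interval_cases m
    · rw [alt_zero] at h2
      rw [Δ.eq_of_δ_eq_one h2] at hfix
      exact ⟨x, Δ.self_mem_Pan j x, hfix⟩
    · rw [alt_one] at h2
      rw [← Δ.Pan_eq_of_mem (Δ.mem_Pan_of_δ h2)] at hfix
      exact ⟨x, Δ.self_mem_Pan j x, hfix⟩
  · generalize ℓ (Δ.δ u' x) = m at h2 hl
    interval_cases m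
    · rw [alt_zero] at h2
      rw [Δ.eq_of_δ_eq_one h2] at hfix
      exact ⟨x, Δ.self_mem_Pan j x, hfix⟩
    · rw [alt_one] at h2
      exact ⟨u', Δ.mem_Pan_symm (Δ.mem_Pan_of_δ h2), hfix⟩

variable (hL : Lin M n lab nd)

include hL

omit hp F in
theorem lin_orderOf [Finite I] [Finite W] (k : ℕ) (hk : k + 2 < n) :
    orderOf (cs.simple (nd (k + 1)) * cs.simple (nd k)) = 3 := by
  rw [orderOf_comm', ordM cs, hL.m3 k hk]

theorem down_base [Finite I] [Finite W] (hn : 2 ≤ n) (hth : Δ.Thick) {a b : G} (hab : Good p a b) (hD : Dis Δ a b ⊆ {1})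
    (hi : Mv Δ (nd (n - 1)) a) (hj : Mv Δ (nd (n - 2)) b) : Down Δ lab nd a (n - 2) := by
  have hm : orderOf (cs.simple (nd (n - 2)) * cs.simple (nd (n - 1))) = 4 := by
    have h1 := hL.m4 (n - 2) (by omega)
    rw [show n - 2 + 1 = n - 1 by omega] at h1
    rw [ordM cs, h1]
  have hja : ¬ Mv Δ (nd (n - 2)) a := fun h' => not_mv_both S hD _ ⟨h', hj⟩
  intro x hx
  rw [show n - 2 + 2 = n by omega, hL.tt_n] at hx
  rw [show n - 2 + 1 = n - 1 by omega]
  constructor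
  · obtain ⟨x', hx', h⟩ := b1_ex S hth hab hD hi hj hm hx
    exact ⟨x', hx', (hL.tt_last (by omega)).2 h⟩
  · intro x' hx' x'' hx'' hne h1 h2
    rw [hL.tt_last (by omega)] at h1 h2
    have h3 : x'' ∈ Δ.Pan (nd (n - 2)) x' := by rw [Δ.Pan_eq_of_mem hx']; exact hx''
    have h4 := b1_two S hth (uni_left S hth hab hD) hja hm h3 (Ne.symm hne) h1 h2
    intro y hy
    rw [hL.set_last2 hn] at hy
    refine h4 y ?_
    have h5 : x' ∈ Δ.Res {nd (n - 1), nd (n - 2)} x := Δ.Pan_subset_Res (by simp) x hx'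
    rw [Δ.Res_eq_of_mem h5]; exact hy

/-- all fixed chambers are near to the centre -/
theorem glob (hn : 3 ≤ n) {a : G} (hu : Uni Δ a)
    (hm : ∀ k, k + 2 < n → orderOf (cs.simple (nd (k + 1)) * cs.simple (nd k)) = 3)
    (hdown : ∀ k, k + 2 ≤ n → Down Δ lab nd a k) (hne : ∃ x : C, a • x ≠ x) {x0 : C} (hx0 : TT Δ lab a 1 x0) :
    ∀ y : C, a • y = y → ∃ y' ∈ Δ.Res {i | lab i + 2 ≤ n} y, y' ∈ Δ.Res {i | 1 ≤ lab i} x0 := by
  have key : ∀ m, ∀ y : C, ℓ (Δ.δ x0 y) = m → a • y = y →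
      ∃ y' ∈ Δ.Res {i | lab i + 2 ≤ n} y, y' ∈ Δ.Res {i | 1 ≤ lab i} x0 := by
    intro m
    induction m with
    | zero =>
      intro y h _
      rw [cs.length_eq_zero_iff] at h
      rw [← Δ.eq_of_δ_eq_one h]
      exact ⟨x0, Δ.self_mem_Res _ _, Δ.self_mem_Res _ _⟩
    | succ m ih =>
      intro y h hay
      have hne1 : Δ.δ x0 y ≠ 1 := fun h1 => by rw [h1, cs.length_one] at h; omega
      obtain ⟨i, hi⟩ := cs.exists_rightDescent_of_ne_one hne1
      rw [cs.isRightDescent_iff] at hi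
      obtain ⟨z, hyz, hz'⟩ := Δ.exists_step x0 y i
      have hzy := Δ.δ_symm_simple hyz
      have haz : a • z = z := by
        refine fix_conv S hx0.self hay ?_ ?_
        · rw [hz', hzy, cs.simple_mul_simple_cancel_right]
        · rw [hz', hzy, cs.simple_mul_simple_cancel_right, cs.length_simple]; omega
      obtain ⟨z', hz1, hz2⟩ := ih z (by rw [hz']; omega) haz
      by_cases hli : lab i + 2 ≤ n
      · refine ⟨z', ?_, hz2⟩
        exact Δ.mem_Res_trans (Δ.Pan_subset_Res (show lab i + 2 ≤ n from hli) y (Δ.mem_Pan_of_δ hyz)) hz1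
      · have hlab := hL.lab_lt i
        have hi' : i = nd (n - 1) := by
          have : lab i = n - 1 := by omega
          rw [← this, hL.nd_lab]
        subst hi'
        have h1 : TT Δ lab a (n - 1) z := (hL.tt_last (by omega)).2
          (hu _ z y haz hay (Δ.mem_Pan_of_δ hzy) (Δ.ne_of_δ_simple hyz))
        obtain ⟨u', hu1, hu2⟩ := climb hL hdown (n - 3) (by omega) z (by rwa [show n - 3 + 2 = n - 1 by omega])
        have hz3 : TT Δ lab a 1 z' := hx0.res hz2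
        have h2 : u' ∈ Δ.Res {i | 1 ≤ lab i} z' := by
          refine uniqA hL hm (by omega) hdown hne hz3 hu2 ?_
          refine Δ.mem_Res_trans (Δ.mem_Res_symm hz1) ?_
          exact Δ.Res_mono (J := {i | lab i ≤ n - 3}) (K := {i | lab i + 2 ≤ n})
            (fun i (hi : lab i ≤ n - 3) => show lab i + 2 ≤ n by omega) z hu1
        obtain ⟨y', hy1, hy2⟩ := sqRes (Δ := Δ) (i := nd (n - 1)) (K := {i | lab i ≤ n - 3})
          (fun k (hk : lab k ≤ n - 3) => hL.comm' cs (by rw [hL.lab_nd _ (by omega)]; omega)) (Δ.mem_Pan_of_δ hzy) hu1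
        refine ⟨y', Δ.Res_mono (J := {i | lab i ≤ n - 3}) (K := {i | lab i + 2 ≤ n})
            (fun i (hi : lab i ≤ n - 3) => show lab i + 2 ≤ n by omega) y hy1, ?_⟩
        refine Δ.mem_Res_trans hz2 (Δ.mem_Res_trans h2 ?_)
        exact Δ.Pan_subset_Res (J := {i | 1 ≤ lab i}) (show 1 ≤ lab (nd (n - 1)) by rw [hL.lab_nd _ (by omega)]; omega) u' hy2
  intro y hy
  exact key _ y rfl hy

/-- the core: `a` moves the last type only -/
theorem cn_core [Finite I] [Finite W] (hn : 3 ≤ n) (hth : Δ.Thick) {a b c : G} (hab : Good p a b) (hD : Dis Δ a b ⊆ {1})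
    (h : AllConj a b c) (hi : Mv Δ (nd (n - 1)) a) (hj : ∀ k, k + 2 ≤ n → Mv Δ (nd k) b) : False := by
  have hm4 : orderOf (cs.simple (nd (n - 2)) * cs.simple (nd (n - 1))) = 4 := by
    have h1 := hL.m4 (n - 2) (by omega)
    rw [show n - 2 + 1 = n - 1 by omega] at h1
    rw [ordM cs, h1]
  have hm := lin_orderOf S hL
  have hcl : ∀ i, lab i + 1 < n → ¬ Mv Δ i a := by
    intro i hi' h'
    have h1 := hj (lab i) (by omega)
    rw [hL.nd_lab] at h1
    exact not_mv_both S hD i ⟨h', h1⟩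
  have hu := uni_left S hth hab hD
  have hdown := down_all hL hcl hm (by omega) (down_base S hL (by omega) hth hab hD hi (hj _ (by omega)))
  obtain ⟨c1, d1, hc1, hd1, hne1⟩ := hi
  have hi : Mv Δ (nd (n - 1)) a := ⟨c1, d1, hc1, hd1, hne1⟩
  have hne : ∃ x : C, a • x ≠ x := ⟨d1, hne1⟩
  obtain ⟨x0, -, hx0⟩ := climb hL hdown (n - 2) (by omega) c1 (by
    rw [show n - 2 + 2 = n by omega]; exact hL.tt_n.2 hc1)
  -- choose a conjugate of `b` which fixes `x0`
  have := nonemptyC S hab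
  obtain ⟨f, -, hf⟩ := exists_common S hab hD
  obtain ⟨g, hg⟩ := exists_smul S hth f x0
  obtain ⟨g', hg'⟩ : ∃ g' : G, IsoJ Δ {nd (n - 1), nd (n - 2)} (a * (g' * b * g'⁻¹)) :=
    ⟨1, iso_of_mv S hth hab hD h hi (hj _ (by omega)) hm4 (by omega) (by decide) 1⟩
  have hiso := iso_all S h hg' g
  set b' := g * b * g⁻¹ with hb'
  have hab' : Good p a b' := hab.conjR g
  have hD' : Dis Δ a b' ⊆ {1} := dis_conjR S hD g
  have hbx0 : b' • x0 = x0 := by rw [hb', mul_smul, mul_smul, ← hg, inv_smul_smul, hf]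
  have hj' : Mv Δ (nd (n - 2)) b' := by
    have h1 : Mv Δ (nd (n - 2)) (g⁻¹ * b' * g⁻¹⁻¹) := by
      rw [hb']
      have e : g⁻¹ * (g * b * g⁻¹) * g⁻¹⁻¹ = b := by group
      rw [e]; exact hj _ (by omega)
    exact mv_conj S h1
  obtain ⟨x, u, hax, hbx, huR, hu1, hbu⟩ := iso_center S hth hab' hD' hi hj' hm4 hiso
  apply hbu
  have hlast : lab (nd (n - 1)) = n - 1 := hL.lab_nd _ (by omega)
  -- the point of `u`
  have hTu : TT Δ lab a (n - 1) u := (hL.tt_last (by omega)).2 (hu1.fixi le_rfl)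
  obtain ⟨u', hu'1, hu'2⟩ := climb hL hdown (n - 3) (by omega) u (by rwa [show n - 3 + 2 = n - 1 by omega])
  obtain ⟨y', hy1, hy2⟩ := glob S hL hn hu hm hdown hne hx0 u hu1.self_fix
  have hsub : ∀ w w' : C, w' ∈ Δ.Res {i | lab i ≤ n - 3} w → w' ∈ Δ.Res {i | lab i + 2 ≤ n} w := fun w w' h =>
    Δ.Res_mono (J := {i | lab i ≤ n - 3}) (K := {i | lab i + 2 ≤ n})
      (fun i (hi : lab i ≤ n - 3) => show lab i + 2 ≤ n by omega) w h
  have hu'0 : u' ∈ Δ.Res {i | 1 ≤ lab i} x0 := by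
    refine Δ.mem_Res_trans hy2 (uniqA hL hm (by omega) hdown hne (hx0.res hy2) hu'2 ?_)
    exact Δ.mem_Res_trans (Δ.mem_Res_symm hy1) (hsub _ _ hu'1)
  have hbu'0 : b' • u' ∈ Δ.Res {i | 1 ≤ lab i} x0 := by
    have h1 := S.smul_mem_Res (g := b') hu'0
    rwa [hbx0] at h1
  have hTbu : TT Δ lab a 1 (b' • u') := hx0.res hbu'0
  -- the panel of `b' u` is fixed by `a`
  have hpan : ∀ y ∈ Δ.Pan (nd (n - 1)) (b' • u), a • y = y := by
    intro y hy
    have h1 : b' • u' ∈ Δ.Res {i | lab i ≤ n - 3} (b' • u) := S.smul_mem_Res hu'1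
    obtain ⟨z, hz1, hz2⟩ := sqRes (Δ := Δ) (i := nd (n - 1)) (K := {i | lab i ≤ n - 3})
      (fun k (hk : lab k ≤ n - 3) => hL.comm' cs (by rw [hlast]; omega)) hy h1
    have hz3 : a • z = z := hTbu z (Δ.Pan_subset_Res (show 1 ≤ lab (nd (n - 1)) by rw [hlast]; omega) _ hz2)
    exact fix_res_of_not_mv (fun i (hi : lab i ≤ n - 3) => hcl i (by omega)) hz3 (Δ.mem_Res_symm hz1)
  refine hu1.uniq S hm4 ?_ hpan
  have h1 := S.smul_mem_Res (g := b') huR
  rw [hbx] at h1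
  exact Δ.mem_Res_trans (Δ.mem_Res_symm huR) h1

/-- **Type `B_n`, `C_n`, `n ≥ 3`.** -/
theorem type_cn [Finite I] [Finite W] (hn : 3 ≤ n) (hth : Δ.Thick) {a b c : G} (hab : Good p a b) (hD : Dis Δ a b ⊆ {1})
    (h : AllConj a b c) (ha : ∃ x : C, a • x ≠ x) (hb : ∃ x : C, b • x ≠ x) : False := by
  -- the moved types of label `≤ n - 2`
  have hall : ∀ x : G, ∀ k l, k + 2 ≤ n → l + 2 ≤ n → Mv Δ (nd k) x → Mv Δ (nd l) x := by
    intro x
    have hup : ∀ k d, k + d + 2 ≤ n → Mv Δ (nd k) x → Mv Δ (nd (k + d)) x := by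
      intro k d
      induction d with
      | zero => intro _ h; exact h
      | succ d ih =>
        intro hd hk
        exact mv_of_m3 S (hL.m3 (k + d) (by omega)) (ih (by omega) hk)
    have hdn : ∀ k d, k + d + 2 ≤ n → Mv Δ (nd (k + d)) x → Mv Δ (nd k) x := by
      intro k d
      induction d with
      | zero => intro _ h; exact h
      | succ d ih =>
        intro hd hk
        refine ih (by omega) (mv_of_m3 S ?_ hk)
        rw [M.symmetric]; exact hL.m3 (k + d) (by omega)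
    intro k l hk hl hM
    rcases le_total k l with hkl | hkl
    · have := hup k (l - k) (by omega) hM
      rwa [show k + (l - k) = l by omega] at this
    · refine hdn l (k - l) (by omega) ?_
      rwa [show l + (k - l) = k by omega]
  have := nonemptyC S hab
  obtain ⟨f, hfa, hfb⟩ := exists_common S hab hD
  obtain ⟨x, hx⟩ := ha
  obtain ⟨y, hy⟩ := hb
  obtain ⟨k, hk⟩ := exists_mv (Δ := Δ) hfa hx
  obtain ⟨l, hl⟩ := exists_mv (Δ := Δ) hfb hy
  have hlab : ∀ i : I, lab i + 2 ≤ n ∨ i = nd (n - 1) := by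
    intro i
    by_cases h1 : lab i + 2 ≤ n
    · exact Or.inl h1
    · right
      have h2 : lab i = n - 1 := by have := hL.lab_lt i; omega
      rw [← h2, hL.nd_lab]
  by_cases hlast : Mv Δ (nd (n - 1)) a
  · have hl' : lab l + 2 ≤ n := by
      rcases hlab l with h1 | h1
      · exact h1
      · exfalso
        rw [h1] at hl
        exact not_mv_both S hD _ ⟨hlast, hl⟩
    rw [← hL.nd_lab l] at hl
    exact cn_core S hL hn hth hab hD h hlast (fun k hk' => hall b _ _ hl' hk' hl)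
  · have hk' : lab k + 2 ≤ n := by
      rcases hlab k with h1 | h1
      · exact h1
      · exfalso
        rw [h1] at hk
        exact hlast hk
    rw [← hL.nd_lab k] at hk
    have hlast' : Mv Δ (nd (n - 1)) b := by
      rcases hlab l with h1 | h1
      · exfalso
        rw [← hL.nd_lab l] at hl
        exact not_mv_both S hD (nd (lab l)) ⟨hall a _ _ hk' h1 hk, hl⟩
      · rw [h1] at hl; exact hl
    exact cn_core S hL hn hth hab.swap (dis_swap S hD) h.symm hlast' (fun k hk'' => hall a _ _ hk' hk'' hk)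

end Sys

end Cfsg.Agent.H148.Cls
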