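import Mathlib
import Cfsg.Agent.Tits.Gate
import Cfsg.Agent.Tits.OppRes

/-!
# S2451, helper148: fixed chambers in the buildings of type `F4`, `Dis = {1}`: the combinatorial setting

`F` is the set of the chambers fixed by a `p`-element which moves the types `i1, i2` only. `F4Set` collects the
local facts; `F4Main` is the alternative to be proved: `F4Set Δ i1 i2 i3 i4 F → F.Nonempty → F4Main Δ i1 i2 i3 i4 F`.
-/

set_option autoImplicit false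

namespace Cfsg.Agent.H148.Cls

open Cfsg.Agent.Tits.Core Cfsg.Agent.Tits.Core.Bldg Cfsg.Agent.Tits.Exchange Cfsg.Agent.Tits

variable {I : Type*} {M : CoxeterMatrix I} {W : Type*} [Group W] {cs : CoxeterSystem M W} {C : Type*}

/-- the local facts (nodes `i1 - i2 => i3 - i4`; the element moves the types `i1, i2` only) -/
structure F4Set (Δ : Bldg cs C) (i1 i2 i3 i4 : I) (F : Set C) : Prop where
  m12 : M i1 i2 = 3
  m23 : M i2 i3 = 4
  m34 : M i3 i4 = 3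
  m13 : M i1 i3 = 2
  m14 : M i1 i4 = 2
  m24 : M i2 i4 = 2
  thick : Δ.Thick
  /-- the types `i3`, `i4` are not moved -/
  cl3 : ∀ x ∈ F, Δ.Pan i3 x ⊆ F
  cl4 : ∀ x ∈ F, Δ.Pan i4 x ⊆ F
  /-- one or all chambers of a panel -/
  uni : ∀ (i : I) (x y : C), x ∈ F → y ∈ F → y ∈ Δ.Pan i x → y ≠ x → Δ.Pan i x ⊆ F
  /-- two opposite chambers of a residue -/
  opp : ∀ (J : Set I) (x y : C), x ∈ F → y ∈ F → Δ.δ x y = wJ cs J → Δ.Res J x ⊆ F
  /-- convexity -/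
  conv : ∀ x y z : C, cs.length (Δ.δ x z) = cs.length (Δ.δ x y) + cs.length (Δ.δ y z) →
    Δ.δ x z = Δ.δ x y * Δ.δ y z → x ∈ F → z ∈ F → y ∈ F
  /-- an elation of a plane with a centre has an axis -/
  c1 : ∀ x, Δ.Pan i2 x ⊆ F → ∃ x' ∈ Δ.Pan i2 x, Δ.Pan i1 x' ⊆ F
  /-- an elation of a plane with an axis has a centre -/
  c2 : ∀ x, Δ.Pan i1 x ⊆ F → ∃ x' ∈ Δ.Pan i1 x, Δ.Pan i2 x' ⊆ F
  /-- the residues of type `{i2, i3}` : exactly one or all ... -/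
  b1 : ∀ x ∈ F, ∃ x' ∈ Δ.Pan i3 x, Δ.Pan i2 x' ⊆ F
  b1' : ∀ x x', x' ∈ Δ.Pan i3 x → x' ≠ x → Δ.Pan i2 x ⊆ F → Δ.Pan i2 x' ⊆ F → Δ.Res {i2, i3} x ⊆ F
  /-- the residues of type `{i1, i2, i3}` : two opposite points, the residue of one of them is fixed -/
  g3 : ∀ x y, Δ.Res {i2, i3} x ⊆ F → y ∈ F →
    Δ.δ x y = cs.simple i1 * cs.simple i2 * cs.simple i3 * cs.simple i2 * cs.simple i1 →
    Δ.Res {i1, i2, i3} x ⊆ F

/-- the alternative: a central point, or a point which is near to all the chambers with fixed `{i2, i3}`-residues -/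
def F4Main (Δ : Bldg cs C) (i1 i2 i3 i4 : I) (F : Set C) : Prop :=
  (∃ x, ∀ y ∈ Δ.Res {i2, i3, i4} x, Δ.Res {i1, i2, i3} y ⊆ F) ∨
  ∃ P, Δ.Res {i2, i3, i4} P ⊆ F ∧ ∀ x, Δ.Res {i2, i3} x ⊆ F →
    ∃ y ∈ Δ.Res {i2, i3} x, ∃ y' ∈ Δ.Pan i1 y, y' ∈ Δ.Res {i2, i3, i4} P

end Cfsg.Agent.H148.Cls
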