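import Mathlib
import Cfsg.Agent.H148.Cls.CNB
import Cfsg.Agent.H148.Cls.F4Set
import Cfsg.Agent.H864.F4.Main

/-!
# S2451, helper148: type `F4`, `Dis Δ a b ⊆ {1}` : the fixed chambers form an `F4Set`; the cases of `F4Main`
-/

set_option autoImplicit false
set_option linter.unusedSectionVars false

open scoped Pointwise

namespace Cfsg.Agent.H148.Cls

open Cfsg.Agent.Tits.Core Cfsg.Agent.Tits.Core.Bldg Cfsg.Agent.Tits.Exchange Cfsg.Agent.Tits Cfsg.Agent.FixBN
open Cfsg.Agent.H197.Cls Cfsg.Agent.H234.CoxB Cfsg.Agent.H330.ClassProd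

variable {I : Type*} {M : CoxeterMatrix I} {W : Type*} [Group W] {cs : CoxeterSystem M W} {C : Type*}

local prefix:100 "ℓ" => cs.length

section Len

variable [F : OppRes.Cox cs]

theorem len_not_mem {J : Set I} {v : W} (hv : v ∈ WJ cs J) {k : I} (hk : k ∉ J) : ℓ (v * cs.simple k) = ℓ v + 1 := by
  rcases cs.length_mul_simple v k with h | h
  · exact h
  · exact absurd (F.descent_mem J v hv k (by omega)) hk

theorem len_not_mem_left {J : Set I} {v : W} (hv : v ∈ WJ cs J) {k : I} (hk : k ∉ J) : ℓ (cs.simple k * v) = ℓ v + 1 := by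
  have h := len_not_mem (cs := cs) (inv_mem hv) hk
  rw [cs.length_inv, ← cs.length_inv, mul_inv_rev, inv_inv, cs.inv_simple] at h
  exact h

variable {i1 i2 i3 : I} (h12 : orderOf (cs.simple i1 * cs.simple i2) = 3) (h23 : orderOf (cs.simple i2 * cs.simple i3) = 4)
  (h13 : cs.simple i1 * cs.simple i3 = cs.simple i3 * cs.simple i1) (n13 : i1 ≠ i3)

include h12 h23 h13 n13

/-- `s1 s2 s3` is minimal for the right action of `W_{12}` -/
theorem min123 : ∀ v ∈ WJ cs {i1, i2}, ℓ (cs.simple i1 * cs.simple i2 * cs.simple i3 * v) = 3 + ℓ v := by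
  have n12 : i1 ≠ i2 := ne_kl h12
  have n23 : i2 ≠ i3 := by
    rintro rfl
    rw [cs.simple_mul_simple_self, orderOf_one] at h23
    omega
  have m12 : cs.simple i1 * cs.simple i2 ∈ WJ cs {i1, i2} :=
    mul_mem (simple_mem_WJ cs (by simp)) (simple_mem_WJ cs (by simp))
  have hn3 : i3 ∉ ({i1, i2} : Set I) := by
    rintro (h | h)
    · exact n13 h.symm
    · exact n23 h.symm
  have hn1 : i1 ∉ ({i2, i3} : Set I) := by
    rintro (h | h)
    · exact n12 h
    · exact n13 h
  have h3 : ℓ (cs.simple i1 * cs.simple i2 * cs.simple i3) = 3 := by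
    rw [len_not_mem m12 hn3, len_two n12]
  have hmin := F.add_right {i1, i2} (cs.simple i1 * cs.simple i2 * cs.simple i3) (by
    rintro j (rfl | hj)
    · -- `s1 s2 s3 s1 = s1 s2 s1 s3`
      have e : cs.simple j * cs.simple i2 * cs.simple i3 * cs.simple j =
          alt cs j i2 3 * cs.simple i3 := by
        rw [alt_succ, alt_succ, alt_one, mul_assoc, ← h13]; simp only [mul_assoc]
      rw [e, len_not_mem (alt_mem j i2 3) hn3, wa h12 le_rfl, h3]; omega
    · rw [Set.mem_singleton_iff] at hj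
      subst hj
      have e : cs.simple i1 * cs.simple j * cs.simple i3 * cs.simple j = cs.simple i1 * alt cs j i3 3 := by
        rw [alt_succ, alt_succ, alt_one]; simp only [mul_assoc]
      rw [e, len_not_mem_left (alt_mem j i3 3) hn1, len_alt h23 (by omega), h3]; omega)
  intro v hv
  rw [hmin v hv, h3]

theorem len5 : ℓ (cs.simple i1 * cs.simple i2 * cs.simple i3 * cs.simple i2 * cs.simple i1) = 5 := by
  have h := min123 (cs := cs) h12 h23 h13 n13 (cs.simple i2 * cs.simple i1)
    (mul_mem (simple_mem_WJ cs (by simp)) (simple_mem_WJ cs (by simp)))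
  rw [len_two (ne_kl h12).symm] at h
  rw [mul_assoc]
  exact h

/-- **(W1)** -/
theorem w123 : wJ cs {i1, i2, i3} = wJ cs {i2, i3} *
    (cs.simple i1 * cs.simple i2 * cs.simple i3 * cs.simple i2 * cs.simple i1) ∧
    ℓ (wJ cs {i2, i3} * (cs.simple i1 * cs.simple i2 * cs.simple i3 * cs.simple i2 * cs.simple i1)) = 4 + 5 := by
  have n12 : i1 ≠ i2 := ne_kl h12
  have n23 : i2 ≠ i3 := by
    rintro rfl
    rw [cs.simple_mul_simple_self, orderOf_one] at h23
    omega
  set m := cs.simple i1 * cs.simple i2 * cs.simple i3 * cs.simple i2 * cs.simple i1 with hm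
  have hl5 : ℓ m = 5 := len5 h12 h23 h13 n13
  have b12 : cs.simple i1 * (cs.simple i2 * cs.simple i1) = cs.simple i2 * (cs.simple i1 * cs.simple i2) := by
    have := w3 (cs := cs) h12
    rw [alt_succ, alt_succ, alt_one, alt_succ, alt_succ, alt_one] at this
    exact this
  have hw23 : wJ cs {i2, i3} = alt cs i2 i3 4 := wJ_pair h23 (by decide)
  have hw32 : wJ cs {i2, i3} = alt cs i3 i2 4 := by
    rw [Set.pair_comm]; exact wJ_pair (by rw [orderOf_comm', h23]) (by decide)
  have b23 : cs.simple i2 * (cs.simple i3 * (cs.simple i2 * cs.simple i3)) =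
      cs.simple i3 * (cs.simple i2 * (cs.simple i3 * cs.simple i2)) := by
    have := hw23.symm.trans hw32
    rw [alt_succ, alt_succ, alt_succ, alt_one, alt_succ, alt_succ, alt_succ, alt_one] at this
    exact this
  -- `m` commutes with `s2` and `s3`
  have c2 : m * cs.simple i2 = cs.simple i2 * m := by
    have e1 : m * cs.simple i2 = cs.simple i1 * cs.simple i2 * cs.simple i3 *
        (cs.simple i2 * (cs.simple i1 * cs.simple i2)) := by rw [hm]; simp only [mul_assoc]
    rw [e1, ← b12]
    calc cs.simple i1 * cs.simple i2 * cs.simple i3 * (cs.simple i1 * (cs.simple i2 * cs.simple i1))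
        = cs.simple i1 * cs.simple i2 * (cs.simple i3 * cs.simple i1) * (cs.simple i2 * cs.simple i1) := by
          simp only [mul_assoc]
      _ = cs.simple i1 * cs.simple i2 * (cs.simple i1 * cs.simple i3) * (cs.simple i2 * cs.simple i1) := by rw [h13]
      _ = (cs.simple i1 * (cs.simple i2 * cs.simple i1)) * cs.simple i3 * (cs.simple i2 * cs.simple i1) := by
          simp only [mul_assoc]
      _ = (cs.simple i2 * (cs.simple i1 * cs.simple i2)) * cs.simple i3 * (cs.simple i2 * cs.simple i1) := by rw [b12]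
      _ = _ := by rw [hm]; simp only [mul_assoc]
  have c3 : m * cs.simple i3 = cs.simple i3 * m := by
    calc m * cs.simple i3 = cs.simple i1 * cs.simple i2 * cs.simple i3 * cs.simple i2 * (cs.simple i1 * cs.simple i3) := by
          rw [hm]; simp only [mul_assoc]
      _ = cs.simple i1 * (cs.simple i2 * (cs.simple i3 * (cs.simple i2 * cs.simple i3))) * cs.simple i1 := by
          rw [h13]; simp only [mul_assoc]
      _ = cs.simple i1 * (cs.simple i3 * (cs.simple i2 * (cs.simple i3 * cs.simple i2))) * cs.simple i1 := by rw [b23]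
      _ = (cs.simple i1 * cs.simple i3) * (cs.simple i2 * (cs.simple i3 * cs.simple i2)) * cs.simple i1 := by
          simp only [mul_assoc]
      _ = _ := by rw [h13, hm]; simp only [mul_assoc]
  have cw : m * wJ cs {i2, i3} = wJ cs {i2, i3} * m := by
    rw [hw23, alt_succ, alt_succ, alt_succ, alt_one]
    calc m * (cs.simple i2 * (cs.simple i3 * (cs.simple i2 * cs.simple i3)))
        = (m * cs.simple i2) * (cs.simple i3 * (cs.simple i2 * cs.simple i3)) := by simp only [mul_assoc]
      _ = cs.simple i2 * (m * cs.simple i3) * (cs.simple i2 * cs.simple i3) := by rw [c2]; simp only [mul_assoc]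
      _ = cs.simple i2 * cs.simple i3 * (m * cs.simple i2) * cs.simple i3 := by rw [c3]; simp only [mul_assoc]
      _ = cs.simple i2 * cs.simple i3 * cs.simple i2 * (m * cs.simple i3) := by rw [c2]; simp only [mul_assoc]
      _ = _ := by rw [c3]; simp only [mul_assoc]
  have hm2 : ℓ (m * cs.simple i2) = 6 := by
    have e : m * cs.simple i2 = cs.simple i1 * cs.simple i2 * cs.simple i3 * alt cs i2 i1 3 := by
      rw [hm, alt_succ, alt_succ, alt_one]; simp only [mul_assoc]
    have h := min123 (cs := cs) h12 h23 h13 n13 (alt cs i2 i1 3) (by rw [Set.pair_comm]; exact alt_mem i2 i1 3)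
    rw [e, h, wb h12 le_rfl]
  have mem123 : ∀ k ∈ ({i1, i2, i3} : Set I), cs.simple k ∈ WJ cs {i1, i2, i3} := fun k hk => simple_mem_WJ cs hk
  have s1m := mem123 i1 (by simp)
  have s2m := mem123 i2 (by simp)
  have s3m := mem123 i3 (by simp)
  have hmm : m ∈ WJ cs {i1, i2, i3} := mul_mem (mul_mem (mul_mem (mul_mem s1m s2m) s3m) s2m) s1m
  have hwm : wJ cs {i2, i3} ∈ WJ cs {i1, i2, i3} := WJ_mono cs (by
    intro k hk; exact Or.inr hk) (F.wJ_mem _)
  have hl4 : ℓ (wJ cs {i2, i3}) = 4 := len_wJ_pair h23 (by decide)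
  have hn1 : i1 ∉ ({i2, i3} : Set I) := by
    rintro (h | h)
    · exact n12 h
    · exact n13 h
  have hm3 : ℓ (m * cs.simple i3) = 6 := by
    rcases cs.length_mul_simple m i3 with h | h
    · rw [h, hl5]
    · exfalso
      -- `m s3 = s1 w23 s1`
      have e : m * cs.simple i3 = cs.simple i1 * wJ cs {i2, i3} * cs.simple i1 := by
        rw [hw23, alt_succ, alt_succ, alt_succ, alt_one, hm]
        calc cs.simple i1 * cs.simple i2 * cs.simple i3 * cs.simple i2 * cs.simple i1 * cs.simple i3
            = cs.simple i1 * cs.simple i2 * cs.simple i3 * cs.simple i2 * (cs.simple i1 * cs.simple i3) := by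
              simp only [mul_assoc]
          _ = _ := by rw [h13]; simp only [mul_assoc]
      have h5 : ℓ (cs.simple i1 * wJ cs {i2, i3}) = 5 := by rw [len_not_mem_left (F.wJ_mem _) hn1, hl4]
      have h6 : cs.simple i1 * wJ cs {i2, i3} = wJ cs {i1, i2, i3} := by
        refine F.eq_wJ_of_descents (mul_mem s1m hwm) ?_
        rintro j (rfl | hj)
        · rw [← e, h5]; omega
        · have h7 := F.len_wJ_mul (J := {i2, i3}) (v := cs.simple j) (simple_mem_WJ cs hj)
          rw [cs.length_simple, hl4] at h7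
          have h8 := cs.length_mul_le (cs.simple i1) (wJ cs {i2, i3} * cs.simple j)
          rw [cs.length_simple, ← mul_assoc] at h8
          rw [h5]; omega
      have h7 := F.len_wJ_mul (J := {i1, i2, i3}) (v := m * cs.simple i2) (mul_mem hmm s2m)
      rw [← h6, h5, hm2] at h7
      omega
  -- `m` is minimal for the left action of `W_{23}`
  have hadd : ℓ (m * wJ cs {i2, i3}) = 5 + 4 := by
    rw [F.add_right {i2, i3} m (by
      rintro j (rfl | hj)
      · rw [hm2, hl5]; omega
      · rw [Set.mem_singleton_iff] at hj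
        subst hj
        rw [hm3, hl5]; omega) _ (F.wJ_mem _), hl5, hl4]
  have h9 : ℓ (wJ cs {i2, i3} * m) = 4 + 5 := by rw [← cw, hadd]
  refine ⟨?_, h9⟩
  symm
  refine eq_wJ_of_descentsL (mul_mem hwm hmm) ?_
  rintro j (rfl | hj)
  · have e : cs.simple j * (wJ cs {i2, i3} * m) = cs.simple i2 * cs.simple i3 * cs.simple i2 * cs.simple j * wJ cs {i2, i3} := by
      rw [← cw, hm, ← mul_assoc, ← mul_assoc, ← mul_assoc, ← mul_assoc, ← mul_assoc, cs.simple_mul_simple_self, one_mul]
    have h7 := cs.length_mul_le (cs.simple i2 * cs.simple i3 * cs.simple i2 * cs.simple j) (wJ cs {i2, i3})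
    have h8 := cs.length_mul_le (cs.simple i2 * cs.simple i3 * cs.simple i2) (cs.simple j)
    have h10 := cs.length_mul_le (cs.simple i2 * cs.simple i3) (cs.simple i2)
    have h11 := cs.length_mul_le (cs.simple i2) (cs.simple i3)
    rw [cs.length_simple] at h8 h10
    rw [cs.length_simple, cs.length_simple] at h11
    rw [e, h9]
    omega
  · have h7 := F.len_mul_wJ (J := {i2, i3}) (v := cs.simple j) (simple_mem_WJ cs hj)
    rw [cs.length_simple, hl4] at h7
    have h8 := cs.length_mul_le (cs.simple j * wJ cs {i2, i3}) m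
    rw [← mul_assoc, h9]
    omega

end Len

variable {Δ : Bldg cs C} {G : Type*} [Group G] [MulAction G C] {p : ℕ}

section Sys

variable (S : Sys Δ G p) [F : OppRes.Cox cs]

include S

/-- an elation of a plane with an axis has a centre -/
theorem a2_axis {a : G} (hu : Uni Δ a) (hst : StF Δ a) {k l : I} (hm : orderOf (cs.simple k * cs.simple l) = 3) {x : C}
    (hx : ∀ y ∈ Δ.Pan k x, a • y = y) : ∃ x' ∈ Δ.Pan k x, ∀ y ∈ Δ.Pan l x', a • y = y := by
  have hm' : orderOf (cs.simple l * cs.simple k) = 3 := by rw [orderOf_comm', hm]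
  obtain ⟨y, hy⟩ := exists_adj Δ x l
  obtain ⟨z, hz⟩ := exists_adj Δ y k
  have hxz : Δ.δ x z = alt cs l k 2 := by
    rw [alt_succ, alt_one]
    exact Δ.δ_mul_of hy hz (by rw [len_two (ne_kl hm').symm.symm, cs.length_simple, cs.length_simple])
  -- the `l`-panel of `z` does not meet the `k`-panel of `x`
  have hfar : ∀ v ∈ Δ.Pan k x, v ∉ Δ.Pan l z := by
    intro v hv hvz
    have h1 : 2 ≤ ℓ (Δ.δ x v) := by
      rcases hvz with rfl | hvz
      · rw [hxz, wb hm (by omega)]
      · have h2 := alt_succ' (cs := cs) l k 2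
        rw [lt_even l k (by decide)] at h2
        have h3 : Δ.δ x v = alt cs l k 3 := by
          rw [h2]
          exact Δ.δ_mul_of hxz hvz (by rw [← h2, wb hm le_rfl, wb hm (by omega), cs.length_simple])
        rw [h3, wb hm le_rfl]; omega
    rcases hv with rfl | hv
    · rw [Δ.δ_self, cs.length_one] at h1; omega
    · rw [hv, cs.length_simple] at h1; omega
  -- the residue is stable
  have haz : a • z ∈ Δ.Res {k, l} z := by
    have h1 : z ∈ Δ.Res {k, l} x := by rw [mem_Res, hxz, Set.pair_comm]; exact alt_mem l k 2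
    have h2 := S.smul_mem_Res (g := a) h1
    rw [hx x (Δ.self_mem_Pan k x)] at h2
    exact Δ.mem_Res_trans (Δ.mem_Res_symm h1) h2
  obtain ⟨x1, hx1, y1, hy1, h1⟩ := a2join hm haz
  have hxx1 : x ∈ Δ.Res {l, k} x1 := by
    rw [Set.pair_comm]
    have h2 : x1 ∈ Δ.Res {k, l} x := by
      refine Δ.mem_Res_trans (y := z) (by rw [mem_Res, hxz, Set.pair_comm]; exact alt_mem l k 2)
        (Δ.Pan_subset_Res (by simp) z hx1)
    exact Δ.mem_Res_symm h2
  obtain ⟨u, hu1, v, hv1, huv⟩ := a2join hm' hxx1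
  -- `u ∈ Pan k x1`, `v ∈ Pan k x`, `v ∈ Pan l u`
  have hav : a • v = v := hx v hv1
  have huv' : u ≠ v := by
    rintro rfl
    have h2 : x1 ∈ Δ.Pan k x := Δ.mem_Pan_trans hv1 (Δ.mem_Pan_symm hu1)
    exact hfar x1 h2 hx1
  have hx1u : x1 ≠ u := by
    rintro rfl
    exact hfar v hv1 (Δ.mem_Pan_trans hx1 huv)
  have hy1u : y1 ≠ u := by
    rintro rfl
    have h2 : v ∈ Δ.Pan l (a • z) := Δ.mem_Pan_trans hy1 huv
    have h3 := smul_mem_Pan S (g := a⁻¹) h2
    rw [inv_smul_smul, inv_smul_eq_iff.2 hav.symm] at h3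
    exact hfar v hv1 h3
  -- the panel of `x1` is stable or `u` is fixed
  have hau : a • u = u := by
    by_contra hau
    have g1 : a • u ∈ Δ.Pan l u := by
      have h2 := smul_mem_Pan S (g := a) huv
      rw [hav] at h2
      exact Δ.mem_Pan_trans huv (Δ.mem_Pan_symm h2)
    have g2 : a • x1 ∈ Δ.Pan k (a • u) := smul_mem_Pan S (Δ.mem_Pan_symm hu1)
    have g3 : y1 ∈ Δ.Pan l (a • x1) := by
      have h2 := smul_mem_Pan S (g := a) hx1
      exact Δ.mem_Pan_trans (Δ.mem_Pan_symm h2) hy1
    have g4 : y1 ∈ Δ.Pan k u := Δ.mem_Pan_trans (Δ.mem_Pan_symm hu1) h1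
    by_cases hay : a • x1 = y1
    · -- the panel of `x1` is stable
      have h2 : a • x1 ∈ Δ.Pan k x1 := by rw [hay]; exact h1
      obtain ⟨w, hw, haw⟩ := hst.pan h2
      have hwu : w ≠ u := by
        rintro rfl
        exact hau haw
      have e1 : Δ.δ w u = cs.simple k := Δ.δ_eq_of_mem_Pan hw hu1 hwu
      have e2 : Δ.δ u v = cs.simple l := Δ.δ_eq_of_mem_Pan (Δ.self_mem_Pan l u) huv huv'
      refine hau (fix_conv S haw hav (Δ.δ_mul_of e1 e2 ?_ |>.trans (by rw [e1, e2])) (by
        rw [e1, e2, len_two (ne_kl hm), cs.length_simple, cs.length_simple]))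
      rw [len_two (ne_kl hm), cs.length_simple, cs.length_simple]
    · have e1 : Δ.δ u (a • u) = cs.simple l := Δ.δ_eq_of_mem_Pan (Δ.self_mem_Pan l u) g1 (Ne.symm hau)
      have e2 : Δ.δ (a • u) (a • x1) = cs.simple k :=
        Δ.δ_eq_of_mem_Pan (Δ.self_mem_Pan k _) g2 (fun h => hx1u (smul_left_cancel a h).symm)
      have e3 : Δ.δ (a • x1) y1 = cs.simple l := Δ.δ_eq_of_mem_Pan (Δ.self_mem_Pan l _) g3 hay
      have e12 : Δ.δ u (a • x1) = alt cs l k 2 := by
        rw [alt_succ, alt_one]
        exact Δ.δ_mul_of e1 e2 (by rw [len_two (ne_kl hm').symm.symm, cs.length_simple, cs.length_simple])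
      have h2 := alt_succ' (cs := cs) l k 2
      rw [lt_even l k (by decide)] at h2
      have e123 : Δ.δ u y1 = alt cs l k 3 := by
        rw [h2]
        exact Δ.δ_mul_of e12 e3 (by rw [← h2, wb hm le_rfl, wb hm (by omega), cs.length_simple])
      have h3 : ℓ (Δ.δ u y1) ≤ 1 := by
        rcases g4 with h4 | h4
        · rw [h4, Δ.δ_self, cs.length_one]; omega
        · rw [h4, cs.length_simple]
      rw [e123, wb hm le_rfl] at h3
      omega
  exact ⟨v, hv1, hu l v u hav hau (Δ.mem_Pan_symm huv) huv'⟩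

end Sys

end Cfsg.Agent.H148.Cls
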