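import Mathlib
import Cfsg.Agent.H148.Cls.F4G

/-!
# S2451, helper148: type `F4`, `Dis Δ a b ⊆ {1}` : the fixed chambers form an `F4Set`
-/

set_option autoImplicit false
set_option linter.unusedSectionVars false

open scoped Pointwise

namespace Cfsg.Agent.H148.Cls

open Cfsg.Agent.Tits.Core Cfsg.Agent.Tits.Core.Bldg Cfsg.Agent.Tits.Exchange Cfsg.Agent.Tits Cfsg.Agent.FixBN
open Cfsg.Agent.H197.Cls Cfsg.Agent.H234.CoxB Cfsg.Agent.H330.ClassProd

variable {I : Type*} {M : CoxeterMatrix I} {W : Type*} [Group W] {cs : CoxeterSystem M W} {C : Type*}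

local prefix:100 "ℓ" => cs.length

theorem comm_of_two (cs : CoxeterSystem M W) {i j : I} (h : M i j = 2) :
    cs.simple i * cs.simple j = cs.simple j * cs.simple i := by
  have h1 := cs.simple_mul_simple_pow i j
  rw [h, pow_two] at h1
  have h2 : cs.simple i * cs.simple j = (cs.simple i * cs.simple j)⁻¹ := eq_inv_of_mul_eq_one_left h1
  rw [mul_inv_rev, cs.inv_simple, cs.inv_simple] at h2
  exact h2

variable {Δ : Bldg cs C} {G : Type*} [Group G] [MulAction G C] {p : ℕ}

/-- the diagram `F4` -/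
structure F4Dia (M : CoxeterMatrix I) (i1 i2 i3 i4 : I) : Prop where
  m12 : M i1 i2 = 3
  m23 : M i2 i3 = 4
  m34 : M i3 i4 = 3
  m13 : M i1 i3 = 2
  m14 : M i1 i4 = 2
  m24 : M i2 i4 = 2
  all : ∀ i, i = i1 ∨ i = i2 ∨ i = i3 ∨ i = i4

namespace F4Dia

variable {i1 i2 i3 i4 : I} (h : F4Dia M i1 i2 i3 i4)

include h

theorem symm : F4Dia M i4 i3 i2 i1 where
  m12 := by rw [M.symmetric]; exact h.m34
  m23 := by rw [M.symmetric]; exact h.m23
  m34 := by rw [M.symmetric]; exact h.m12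
  m13 := by rw [M.symmetric]; exact h.m24
  m14 := by rw [M.symmetric]; exact h.m14
  m24 := by rw [M.symmetric]; exact h.m13
  all i := by rcases h.all i with h | h | h | h <;> simp [h]

theorem n12 : i1 ≠ i2 := by
  rintro rfl
  have := h.m12
  rw [M.diagonal] at this; omega

theorem n23 : i2 ≠ i3 := by
  rintro rfl
  have := h.m23
  rw [M.diagonal] at this; omega

theorem n34 : i3 ≠ i4 := by
  rintro rfl
  have := h.m34
  rw [M.diagonal] at this; omega

theorem n13 : i1 ≠ i3 := by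
  rintro rfl
  have := h.m13
  rw [M.diagonal] at this; omega

theorem n14 : i1 ≠ i4 := by
  rintro rfl
  have := h.m14
  rw [M.diagonal] at this; omega

theorem n24 : i2 ≠ i4 := by
  rintro rfl
  have := h.m24
  rw [M.diagonal] at this; omega

theorem c13 (cs : CoxeterSystem M W) : cs.simple i1 * cs.simple i3 = cs.simple i3 * cs.simple i1 := comm_of_two cs h.m13

theorem c14 (cs : CoxeterSystem M W) : cs.simple i1 * cs.simple i4 = cs.simple i4 * cs.simple i1 := comm_of_two cs h.m14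

theorem c24 (cs : CoxeterSystem M W) : cs.simple i2 * cs.simple i4 = cs.simple i4 * cs.simple i2 := comm_of_two cs h.m24

end F4Dia

section Sys

variable (S : Sys Δ G p) [F : OppRes.Cox cs] [hp : Fact p.Prime]

include S

theorem f4set [Finite I] [Finite W] (hth : Δ.Thick) {a b : G} (hab : Good p a b) (hD : Dis Δ a b ⊆ {1})
    {i1 i2 i3 i4 : I} (h : F4Dia M i1 i2 i3 i4) (h2 : Mv Δ i2 a) (h3 : Mv Δ i3 b) (n3 : ¬ Mv Δ i3 a)
    (n4 : ¬ Mv Δ i4 a) : F4Set Δ i1 i2 i3 i4 {x | a • x = x} where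
  m12 := h.m12
  m23 := h.m23
  m34 := h.m34
  m13 := h.m13
  m14 := h.m14
  m24 := h.m24
  thick := hth
  cl3 x hx := fun y hy => fix_of_not_mv n3 hx hy
  cl4 x hx := fun y hy => fix_of_not_mv n4 hx hy
  uni i x y hx hy hyx hne := fun z hz => uni_left S hth hab hD i x y hx hy hyx hne z hz
  opp J x y hx hy hxy := fun z hz => fix_opp S hth (uni_left S hth hab hD) hx hy hxy z hz
  conv x y z hl he hx hz := fix_conv S hx hz he (by rw [← he, hl])
  c1 x hx := by
    have hm : orderOf (cs.simple i2 * cs.simple i1) = 3 := by rw [ordM cs, M.symmetric, h.m12]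
    exact a2_axis S (uni_left S hth hab hD) (stF_left S hth hab hD) hm hx
  c2 x hx := by
    have hm : orderOf (cs.simple i1 * cs.simple i2) = 3 := by rw [ordM cs, h.m12]
    exact a2_axis S (uni_left S hth hab hD) (stF_left S hth hab hD) hm hx
  b1 x hx := b1_ex S hth hab hD h2 h3 (by rw [ordM cs, M.symmetric, h.m23]) hx
  b1' x x' hx' hne h1 h1' :=
    b1_two S hth (uni_left S hth hab hD) n3 (by rw [ordM cs, M.symmetric, h.m23]) hx' hne h1 h1'
  g3 x y hx hy hxy := by
    have h12 : orderOf (cs.simple i1 * cs.simple i2) = 3 := by rw [ordM cs, h.m12]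
    have h23 : orderOf (cs.simple i2 * cs.simple i3) = 4 := by rw [ordM cs, h.m23]
    obtain ⟨hw, hl⟩ := w123 (cs := cs) h12 h23 (h.c13 cs) h.n13
    obtain ⟨x0, hx0⟩ := Δ.exists_δ x (wJ cs {i2, i3})⁻¹
    have hx0R : x0 ∈ Δ.Res {i2, i3} x := by rw [mem_Res, hx0]; exact inv_mem (F.wJ_mem _)
    have hx0x : Δ.δ x0 x = wJ cs {i2, i3} := by rw [Δ.symm, hx0, inv_inv]
    have h5 := len5 (cs := cs) h12 h23 (h.c13 cs) h.n13
    have h4 : ℓ (wJ cs {i2, i3}) = 4 := len_wJ_pair h23 (by decide)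
    have hx0y : Δ.δ x0 y = wJ cs {i1, i2, i3} := by
      rw [hw]
      exact Δ.δ_mul_of hx0x hxy (by rw [hl, h4, h5])
    have hx0F : a • x0 = x0 := hx hx0R
    intro z hz
    refine fix_opp S hth (uni_left S hth hab hD) hx0F hy hx0y z ?_
    refine Δ.mem_Res_trans (Δ.mem_Res_symm ?_) hz
    exact Δ.Res_mono (fun k hk => Or.inr hk) x hx0R

end Sys

end Cfsg.Agent.H148.Cls
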