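import Mathlib
import Cfsg.Agent.H148.Cls.F4H

/-!
# S2451, helper148: type `F4`, `Dis Δ a b ⊆ {1}` : the two alternatives of `F4Main`
-/

set_option autoImplicit false
set_option linter.unusedSectionVars false

open scoped Pointwise

namespace Cfsg.Agent.H148.Cls

open Cfsg.Agent.Tits.Core Cfsg.Agent.Tits.Core.Bldg Cfsg.Agent.Tits.Exchange Cfsg.Agent.Tits Cfsg.Agent.FixBN
open Cfsg.Agent.H197.Cls Cfsg.Agent.H234.CoxB Cfsg.Agent.H330.ClassProd

variable {I : Type*} {M : CoxeterMatrix I} {W : Type*} [Group W] {cs : CoxeterSystem M W} {C : Type*}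

local prefix:100 "ℓ" => cs.length

/-- the longest element of `W(F4)` is in `W_{123} W_{234} W_{123} W_{234}`, the lengths add -/
def W0F4 (cs : CoxeterSystem M W) (i1 i2 i3 i4 : I) : Prop :=
  ∃ u1 ∈ WJ cs {i1, i2, i3}, ∃ u2 ∈ WJ cs {i2, i3, i4}, ∃ u3 ∈ WJ cs {i1, i2, i3}, ∃ u4 ∈ WJ cs {i2, i3, i4},
    w0 cs = u1 * (u2 * (u3 * u4)) ∧ cs.length (w0 cs) = cs.length u1 + cs.length u2 + cs.length u3 + cs.length u4

variable {Δ : Bldg cs C} {G : Type*} [Group G] [MulAction G C] {p : ℕ}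

/-- the fixed chambers contain a residue of type `J` -/
def FixJ (Δ : Bldg cs C) (J : Set I) (z : G) : Prop := ∃ x : C, ∀ y ∈ Δ.Res J x, z • y = y

section Sys

variable (S : Sys Δ G p) [F : OppRes.Cox cs] [hp : Fact p.Prime]

include S

omit F hp in
theorem FixJ.conj {J : Set I} {z : G} (h : FixJ Δ J z) (g : G) : FixJ Δ J (g * z * g⁻¹) := by
  obtain ⟨x, hx⟩ := h
  refine ⟨g • x, fun y hy => ?_⟩
  have h1 := S.smul_mem_Res (g := g⁻¹) hy
  rw [inv_smul_smul] at h1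
  have h2 := hx _ h1
  rw [mul_smul, mul_smul, h2, smul_inv_smul]

omit F hp in
theorem fixJ_all {a b c : G} (h : AllConj a b c) {J : Set I} {g : G} (hg : FixJ Δ J (a * (g * b * g⁻¹))) (g' : G) :
    FixJ Δ J (a * (g' * b * g'⁻¹)) := by
  have key : ∀ g : G, ∃ u : G, u * c * u⁻¹ = a * (g * b * g⁻¹) := by
    intro g
    obtain ⟨u, hu⟩ := isConj_iff.1 (h 1 g)
    have e : (1 : G) * a * 1⁻¹ * (g * b * g⁻¹) = a * (g * b * g⁻¹) := by group
    exact ⟨u, by rw [hu, e]⟩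
  obtain ⟨u, hu⟩ := key g
  obtain ⟨v, hv⟩ := key g'
  have h1 : a * (g' * b * g'⁻¹) = (v * u⁻¹) * (a * (g * b * g⁻¹)) * (v * u⁻¹)⁻¹ := by
    rw [← hu, ← hv]; group
  rw [h1]
  exact hg.conj S _

/-- each product of conjugates fixes a residue of type `J` if `a` and `b` do -/
theorem fixJ_both (hth : Δ.Thick) {a b c : G} (hD : Dis Δ a b ⊆ {1}) (h : AllConj a b c) {J : Set I}
    (ha : FixJ Δ J a) (hb : FixJ Δ J b) (g : G) :
    ∃ x : C, ∀ y ∈ Δ.Res J x, a • y = y ∧ (g * b * g⁻¹) • y = y := by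
  obtain ⟨xa, hxa⟩ := ha
  obtain ⟨xb, hxb⟩ := hb
  obtain ⟨g0, hg0⟩ := exists_smul S hth xb xa
  have h1 : FixJ Δ J (a * (g0 * b * g0⁻¹)) := by
    refine ⟨xa, fun y hy => ?_⟩
    have h2 := S.smul_mem_Res (g := g0⁻¹) hy
    rw [← hg0, inv_smul_smul] at h2
    have h3 := hxb _ h2
    rw [mul_smul, mul_smul, mul_smul, h3, smul_inv_smul, hxa y hy]
  obtain ⟨x, hx⟩ := fixJ_all S h h1 g
  exact ⟨x, fun y hy => fix_mul S (dis_conjR S hD g) (hx y hy)⟩

/-- **the second alternative** -/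
theorem case_two [Finite I] [Finite W] (hth : Δ.Thick) {a b c : G} (hab : Good p a b) (hD : Dis Δ a b ⊆ {1})
    (h : AllConj a b c) {i1 i2 i3 i4 : I} (hd : F4Dia M i1 i2 i3 i4) (h3 : Mv Δ i3 b) (n1 : ¬ Mv Δ i1 b)
    (ha : FixJ Δ {i2, i3} a) (hb : FixJ Δ {i2, i3} b) {P : C}
    (hP : ∀ x, (∀ z ∈ Δ.Res {i2, i3} x, a • z = z) →
      ∃ y ∈ Δ.Res {i2, i3} x, ∃ y' ∈ Δ.Pan i1 y, y' ∈ Δ.Res {i2, i3, i4} P) : False := by
  have h12 : orderOf (cs.simple i1 * cs.simple i2) = 3 := by rw [ordM cs, hd.m12]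
  have h23 : orderOf (cs.simple i2 * cs.simple i3) = 4 := by rw [ordM cs, hd.m23]
  -- all the conjugates of `b` stabilise the residue of `P`
  have hst : ∀ g : G, (g * b * g⁻¹) • P ∈ Δ.Res {i2, i3, i4} P := by
    intro g
    obtain ⟨x, hx⟩ := fixJ_both S hth hD h ha hb g
    obtain ⟨y, hy, y', hy', hyP⟩ := hP x fun z hz => (hx z hz).1
    have n1' : ¬ Mv Δ i1 (g * b * g⁻¹) := fun h' => n1 (mv_conj S h')
    have hby' : (g * b * g⁻¹) • y' = y' := fix_of_not_mv n1' (hx y hy).2 hy'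
    have h1 := S.smul_mem_Res (g := g * b * g⁻¹) hyP
    rw [hby'] at h1
    exact Δ.mem_Res_trans hyP (Δ.mem_Res_symm h1)
  have hall : ∀ x : C, b • x ∈ Δ.Res {i2, i3, i4} x := by
    intro x
    obtain ⟨g, hg⟩ := exists_smul S hth x P
    have h1 := S.smul_mem_Res (g := g⁻¹) (hst g)
    rw [← hg] at h1
    have e : g⁻¹ • (g * b * g⁻¹) • g • x = b • x := by
      rw [mul_smul, mul_smul, inv_smul_smul, inv_smul_smul]
    rw [e, inv_smul_smul] at h1
    exact h1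
  -- a chamber with displacement `s1 s2 s3 s2 s1`
  obtain ⟨c0, d, hc0, hd0, hne⟩ := h3
  have hbd : b • d ∈ Δ.Pan i3 d := by
    have h1 : d ∈ Δ.Pan i3 c0 := Δ.mem_Pan_of_δ hd0
    have h2 := smul_mem_Pan S (g := b) h1
    rw [hc0] at h2
    exact Δ.mem_Pan_trans (Δ.mem_Pan_symm h1) h2
  have e0 : Δ.δ d (b • d) = cs.simple i3 := Δ.δ_eq_of_mem_Pan (Δ.self_mem_Pan i3 d) hbd (Ne.symm hne)
  obtain ⟨y1, hy1⟩ := exists_adj Δ d i2
  obtain ⟨y2, hy2⟩ := exists_adj Δ y1 i1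
  have e1 : Δ.δ (b • d) (b • y1) = cs.simple i2 := by rw [S.iso, hy1]
  have e2 : Δ.δ (b • y1) (b • y2) = cs.simple i1 := by rw [S.iso, hy2]
  have f1 : Δ.δ y1 d = cs.simple i2 := Δ.δ_symm_simple hy1
  have f2 : Δ.δ y2 y1 = cs.simple i1 := Δ.δ_symm_simple hy2
  have l5 := len5 (cs := cs) h12 h23 (hd.c13 cs) hd.n13
  -- partial lengths
  have l4 : ℓ (cs.simple i1 * cs.simple i2 * cs.simple i3 * cs.simple i2) = 4 := by
    have h1 := cs.length_mul_le (cs.simple i1 * cs.simple i2 * cs.simple i3 * cs.simple i2) (cs.simple i1)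
    have h2 := cs.length_mul_le (cs.simple i1 * cs.simple i2 * cs.simple i3) (cs.simple i2)
    have h3 := cs.length_mul_le (cs.simple i1 * cs.simple i2) (cs.simple i3)
    have h4 := cs.length_mul_le (cs.simple i1) (cs.simple i2)
    simp only [cs.length_simple] at h1 h2 h3 h4
    omega
  have l3 : ℓ (cs.simple i1 * cs.simple i2 * cs.simple i3) = 3 := by
    have h2 := cs.length_mul_le (cs.simple i1 * cs.simple i2 * cs.simple i3) (cs.simple i2)
    have h3 := cs.length_mul_le (cs.simple i1 * cs.simple i2) (cs.simple i3)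
    have h4 := cs.length_mul_le (cs.simple i1) (cs.simple i2)
    simp only [cs.length_simple] at h2 h3 h4
    omega
  have l2 : ℓ (cs.simple i1 * cs.simple i2) = 2 := len_two hd.n12
  have g1 : Δ.δ y2 d = cs.simple i1 * cs.simple i2 :=
    Δ.δ_mul_of f2 f1 (by rw [l2, cs.length_simple, cs.length_simple])
  have g2 : Δ.δ y2 (b • d) = cs.simple i1 * cs.simple i2 * cs.simple i3 :=
    Δ.δ_mul_of g1 e0 (by rw [l3, l2, cs.length_simple])
  have g3 : Δ.δ y2 (b • y1) = cs.simple i1 * cs.simple i2 * cs.simple i3 * cs.simple i2 :=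
    Δ.δ_mul_of g2 e1 (by rw [l4, l3, cs.length_simple])
  have g4 : Δ.δ y2 (b • y2) = cs.simple i1 * cs.simple i2 * cs.simple i3 * cs.simple i2 * cs.simple i1 :=
    Δ.δ_mul_of g3 e2 (by rw [l5, l4, cs.length_simple])
  have h5 := hall y2
  rw [mem_Res, g4] at h5
  have h6 := F.descent_mem {i2, i3, i4} _ h5 i1 (by
    rw [mul_assoc _ (cs.simple i1), cs.simple_mul_simple_self, mul_one, l5, l4]; omega)
  rcases h6 with h6 | h6 | h6
  · exact hd.n12 h6
  · exact hd.n13 h6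
  · exact hd.n14 h6

/-- **the first alternative, for `a` and `b`** -/
theorem case_one [Finite I] [Finite W] (hth : Δ.Thick) {a b c : G} (hab : Good p a b) (hD : Dis Δ a b ⊆ {1})
    (h : AllConj a b c) {i1 i2 i3 i4 : I} (hd : F4Dia M i1 i2 i3 i4) (hW : W0F4 cs i1 i2 i3 i4)
    (h2 : Mv Δ i2 a) (h3 : Mv Δ i3 b) {x y : C}
    (hx : ∀ z ∈ Δ.Res {i2, i3, i4} x, ∀ w ∈ Δ.Res {i1, i2, i3} z, a • w = w)
    (hy : ∀ z ∈ Δ.Res {i1, i2, i3} y, ∀ w ∈ Δ.Res {i2, i3, i4} z, b • w = w) : False := by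
  have hm4 : orderOf (cs.simple i3 * cs.simple i2) = 4 := by rw [ordM cs, M.symmetric, hd.m23]
  obtain ⟨g, hg⟩ := exists_smul S hth y x
  set b' := g * b * g⁻¹ with hb'
  have hab' : Good p a b' := hab.conjR g
  have hD' : Dis Δ a b' ⊆ {1} := dis_conjR S hD g
  have hax : a • x = x := hx x (Δ.self_mem_Res _ x) x (Δ.self_mem_Res _ x)
  have hy' : ∀ z ∈ Δ.Res {i1, i2, i3} x, ∀ w ∈ Δ.Res {i2, i3, i4} z, b' • w = w := by
    intro z hz w hw
    have h4 := S.smul_mem_Res (g := g⁻¹) hz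
    have h5 := S.smul_mem_Res (g := g⁻¹) hw
    rw [← hg, inv_smul_smul] at h4
    have h6 := hy _ h4 _ h5
    rw [hb', mul_smul, mul_smul, h6, smul_inv_smul]
  have hbx : b' • x = x := hy' x (Δ.self_mem_Res _ x) x (Δ.self_mem_Res _ x)
  -- the commutator fixes the chambers of both neighbourhoods
  have hNb : ∀ z ∈ Δ.Res {i1, i2, i3} x, ∀ w ∈ Δ.Res {i2, i3, i4} z, (a⁻¹ * b'⁻¹ * a * b') • w = w := by
    intro z hz w hw
    have h4 : b' • w = w := hy' z hz w hw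
    have h5 : a • z ∈ Δ.Res {i1, i2, i3} x := by
      have := S.smul_mem_Res (g := a) hz
      rwa [hax] at this
    have h6 : b' • a • w = a • w := hy' _ h5 _ (S.smul_mem_Res (g := a) hw)
    rw [mul_smul, mul_smul, mul_smul, h4, inv_smul_eq_iff, inv_smul_eq_iff, h6]
  have hNa : ∀ z ∈ Δ.Res {i2, i3, i4} x, ∀ w ∈ Δ.Res {i1, i2, i3} z, (a⁻¹ * b'⁻¹ * a * b') • w = w := by
    intro z hz w hw
    have h4 : a • w = w := hx z hz w hw
    have h5 : b' • z ∈ Δ.Res {i2, i3, i4} x := by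
      have := S.smul_mem_Res (g := b') hz
      rwa [hbx] at this
    have h6 : a • b' • w = b' • w := hx _ h5 _ (S.smul_mem_Res (g := b') hw)
    rw [mul_smul, mul_smul, mul_smul, h6, inv_smul_smul, inv_smul_eq_iff, h4]
  -- opposite chambers
  obtain ⟨u1, hu1, u2, hu2, u3, hu3, u4, hu4, hw0, hl⟩ := hW
  obtain ⟨ya, hya⟩ := Δ.exists_δ x u2⁻¹
  obtain ⟨u, hu⟩ := Δ.exists_δ ya u1⁻¹
  obtain ⟨yb, hyb⟩ := Δ.exists_δ x u3
  obtain ⟨v, hv⟩ := Δ.exists_δ yb u4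
  have l34 := cs.length_mul_le u3 u4
  have l234 := cs.length_mul_le u2 (u3 * u4)
  have l1234 := cs.length_mul_le u1 (u2 * (u3 * u4))
  rw [← hw0, hl] at l1234
  have e1 : Δ.δ x v = u3 * u4 := Δ.δ_mul_of hyb hv (by omega)
  have e2 : Δ.δ ya v = u2 * (u3 * u4) := by
    have e3 : Δ.δ ya x = u2 := by rw [Δ.symm, hya, inv_inv]
    exact Δ.δ_mul_of e3 e1 (by omega)
  have e4 : Δ.δ u v = w0 cs := by
    have e3 : Δ.δ u ya = u1 := by rw [Δ.symm, hu, inv_inv]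
    rw [hw0]
    exact Δ.δ_mul_of e3 e2 (by rw [← hw0, hl]; omega)
  have hyaR : ya ∈ Δ.Res {i2, i3, i4} x := by rw [mem_Res, hya]; exact inv_mem hu2
  have huR : u ∈ Δ.Res {i1, i2, i3} ya := by rw [mem_Res, hu]; exact inv_mem hu1
  have hybR : yb ∈ Δ.Res {i1, i2, i3} x := by rw [mem_Res, hyb]; exact hu3
  have hvR : v ∈ Δ.Res {i2, i3, i4} yb := by rw [mem_Res, hv]; exact hu4
  have hcomm : a * b' = b' * a := comm_eq_one S hab' hax hbx (hNa ya hyaR u huR) (hNb yb hybR v hvR) e4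
  -- the contradiction in an isolated residue
  have hj' : Mv Δ i3 b' := by
    have h1 : Mv Δ i3 (g⁻¹ * b' * g⁻¹⁻¹) := by
      rw [hb']
      have e : g⁻¹ * (g * b * g⁻¹) * g⁻¹⁻¹ = b := by group
      rw [e]; exact h3
    exact mv_conj S h1
  obtain ⟨x', u', hax', hbx', huR', hu', hbu⟩ := iso_center S hth hab' hD' h2 hj' hm4
    (iso_of_mv S hth hab hD h h2 h3 hm4 (by omega) (by decide) g)
  apply hbu
  refine hu'.uniq S hm4 ?_ ?_
  · have h1 := S.smul_mem_Res (g := b') huR'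
    rw [hbx'] at h1
    exact Δ.mem_Res_trans (Δ.mem_Res_symm huR') h1
  · intro z hz
    have h4 : b'⁻¹ • z ∈ Δ.Pan i2 u' := by
      have := smul_mem_Pan S (g := b'⁻¹) hz
      rwa [inv_smul_smul] at this
    have h5 : a • b'⁻¹ • z = b'⁻¹ • z := hu'.fixi le_rfl _ h4
    calc a • z = (a * b') • b'⁻¹ • z := by rw [mul_smul, smul_inv_smul]
      _ = b' • a • b'⁻¹ • z := by rw [hcomm, mul_smul]
      _ = z := by rw [h5, smul_inv_smul]

/-- type `F4`, `a` moves the types `i1, i2`, `b` moves the types `i3, i4` -/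
theorem f4_core [Finite I] [Finite W] (hth : Δ.Thick) {a b c : G} (hab : Good p a b) (hD : Dis Δ a b ⊆ {1})
    (h : AllConj a b c) {i1 i2 i3 i4 : I} (hd : F4Dia M i1 i2 i3 i4) (hW : W0F4 cs i1 i2 i3 i4)
    (h2 : Mv Δ i2 a) (h3 : Mv Δ i3 b) : False := by
  have h1 : Mv Δ i1 a := mv_of_m3 S (by rw [M.symmetric]; exact hd.m12) h2
  have h4 : Mv Δ i4 b := mv_of_m3 S hd.m34 h3
  have n1 : ¬ Mv Δ i1 b := fun h' => not_mv_both S hD i1 ⟨h1, h'⟩
  have n2 : ¬ Mv Δ i2 b := fun h' => not_mv_both S hD i2 ⟨h2, h'⟩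
  have n3 : ¬ Mv Δ i3 a := fun h' => not_mv_both S hD i3 ⟨h', h3⟩
  have n4 : ¬ Mv Δ i4 a := fun h' => not_mv_both S hD i4 ⟨h', h4⟩
  have := nonemptyC S hab
  obtain ⟨f, hfa, hfb⟩ := exists_common S hab hD
  have hFa := H864.F4.f4Set_main (f4set S hth hab hD hd h2 h3 n3 n4) hd.all ⟨f, hfa⟩
  have hFb := H864.F4.f4Set_main (f4set S hth hab.swap (dis_swap S hD) hd.symm h3 h2 n2 n1) hd.symm.all ⟨f, hfb⟩
  have p23 : ({i3, i2} : Set I) = {i2, i3} := Set.pair_comm _ _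
  have p234 : ({i4, i3, i2} : Set I) = {i2, i3, i4} := by ext k; simp only [Set.mem_insert_iff, Set.mem_singleton_iff]; tauto
  have p123 : ({i3, i2, i1} : Set I) = {i1, i2, i3} := by ext k; simp only [Set.mem_insert_iff, Set.mem_singleton_iff]; tauto
  rw [F4Main, p123, p234, p23] at hFb
  -- fixed residues of type `{i2, i3}`
  have hJa : FixJ Δ {i2, i3} a := by
    rcases hFa with ⟨x, hx⟩ | ⟨P, hP, -⟩
    · exact ⟨x, fun y hy => hx x (Δ.self_mem_Res _ x) (Δ.Res_mono (fun k hk => Or.inr hk) x hy)⟩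
    · refine ⟨P, fun y hy => hP (Δ.Res_mono ?_ P hy)⟩
      rintro k (hk | hk)
      · exact Or.inl hk
      · exact Or.inr (Or.inl hk)
  have hJb : FixJ Δ {i2, i3} b := by
    rcases hFb with ⟨x, hx⟩ | ⟨P, hP, -⟩
    · refine ⟨x, fun y hy => hx x (Δ.self_mem_Res _ x) (Δ.Res_mono ?_ x hy)⟩
      rintro k (hk | hk)
      · exact Or.inl hk
      · exact Or.inr (Or.inl hk)
    · refine ⟨P, fun y hy => hP (Δ.Res_mono (fun k hk => Or.inr hk) P hy)⟩
  rcases hFa with ⟨x, hx⟩ | ⟨P, -, hP⟩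
  · rcases hFb with ⟨y, hy⟩ | ⟨P, -, hP⟩
    · exact case_one S hth hab hD h hd hW h2 h3 (fun z hz w hw => hx z hz hw) (fun z hz w hw => hy z hz hw)
    · refine case_two S hth hab.swap (dis_swap S hD) h.symm hd.symm h2 n4 (by rwa [p23]) (by rwa [p23]) (P := P) ?_
      intro x hx
      rw [p23] at hx ⊢
      rw [p123]
      exact hP x hx
  · exact case_two S hth hab hD h hd h3 n1 hJa hJb (fun x hx => hP x hx)

/-- **Type `F4`.** -/
theorem type_f4_of [Finite I] [Finite W] (hth : Δ.Thick) {a b c : G} (hab : Good p a b) (hD : Dis Δ a b ⊆ {1})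
    (h : AllConj a b c) {i1 i2 i3 i4 : I} (hd : F4Dia M i1 i2 i3 i4) (hW : W0F4 cs i1 i2 i3 i4)
    (ha : ∃ x : C, a • x ≠ x) (hb : ∃ x : C, b • x ≠ x) : False := by
  have := nonemptyC S hab
  obtain ⟨f, hfa, hfb⟩ := exists_common S hab hD
  have key : ∀ x : G, x • f = f → (∃ y : C, x • y ≠ y) → Mv Δ i2 x ∨ Mv Δ i3 x := by
    intro x hx hy
    obtain ⟨y, hy⟩ := hy
    obtain ⟨k, hk⟩ := exists_mv (Δ := Δ) hx hy
    rcases hd.all k with rfl | rfl | rfl | rfl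
    · exact Or.inl (mv_of_m3 S hd.m12 hk)
    · exact Or.inl hk
    · exact Or.inr hk
    · exact Or.inr (mv_of_m3 S (by rw [M.symmetric]; exact hd.m34) hk)
  rcases key a hfa ha with h2a | h3a
  · rcases key b hfb hb with h2b | h3b
    · exact not_mv_both S hD i2 ⟨h2a, h2b⟩
    · exact f4_core S hth hab hD h hd hW h2a h3b
  · rcases key b hfb hb with h2b | h3b
    · exact f4_core S hth hab.swap (dis_swap S hD) h.symm hd hW h2b h3a
    · exact not_mv_both S hD i3 ⟨h3a, h3b⟩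

end Sys

end Cfsg.Agent.H148.Cls
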